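import Mathlib.GroupTheory.Sylow
import Mathlib.Tactic
import Cfsg.Agent.FGS2.Order7920

/-!
# Finite groups with the order and the spectrum of `PSL₂(q)`, `q` odd: centralisers and normal subgroups
-/

set_option autoImplicit false
set_option linter.unusedSectionVars false

namespace Cfsg.Agent.SmallOrder.PSL2Spec

open Subgroup

variable {G : Type*} [Group G] [Finite G]

/-- The numerical and spectral data. -/
structure Ctx (G : Type*) [Group G] (p n q m B : ℕ) (a b : G) : Prop where
  hp : p.Prime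
  hp2 : p ≠ 2
  hn : n ≠ 0
  hq : q = p ^ n
  hqmB : q = m + B
  hmB : m = B + 1 ∨ B = m + 1
  hmodd : Odd m
  hm : 3 ≤ m
  hB2 : 2 ≤ B
  hBeven : 2 ∣ B
  hcard : Nat.card G = 2 * q * m * B
  hspec : ∀ x : G, orderOf x ∣ p ∨ orderOf x ∣ m ∨ orderOf x ∣ B
  ha : orderOf a = m
  hb : orderOf b = B

theorem card_conj_class (z : G) :
    (centralizer ({z} : Set G)).index = Nat.card (Set.range fun g : G => g * z * g⁻¹) := by
  rw [Subgroup.index_eq_card]
  refine Nat.card_congr (Equiv.ofBijective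
    (fun x : G ⧸ centralizer ({z} : Set G) => Quotient.liftOn' x
      (fun g => (⟨g * z * g⁻¹, g, rfl⟩ : Set.range fun g : G => g * z * g⁻¹)) ?_) ⟨?_, ?_⟩)
  · intro g h hgh
    rw [QuotientGroup.leftRel_apply, mem_centralizer_singleton_iff] at hgh
    refine Subtype.ext ?_
    show g * z * g⁻¹ = h * z * h⁻¹
    calc g * z * g⁻¹ = g * (z * (g⁻¹ * h)) * h⁻¹ := by group
      _ = g * ((g⁻¹ * h) * z) * h⁻¹ := by rw [hgh]
      _ = h * z * h⁻¹ := by group
  · intro x y
    refine Quotient.inductionOn₂' x y fun g h hgh => Quotient.sound' ?_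
    have e : g * z * g⁻¹ = h * z * h⁻¹ := congrArg Subtype.val hgh
    rw [QuotientGroup.leftRel_apply, mem_centralizer_singleton_iff]
    calc g⁻¹ * h * z = g⁻¹ * (h * z * h⁻¹) * h := by group
      _ = g⁻¹ * (g * z * g⁻¹) * h := by rw [e]
      _ = z * (g⁻¹ * h) := by group
  · rintro ⟨_, g, rfl⟩
    exact ⟨(g : G ⧸ centralizer ({z} : Set G)), rfl⟩

theorem class_add_one_le (N : Subgroup G) [hN : N.Normal] {z : G} (hz : z ∈ N) (h1 : z ≠ 1) :
    (centralizer ({z} : Set G)).index + 1 ≤ Nat.card N := by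
  rw [card_conj_class, Nat.card_coe_set_eq]
  have hnot : (1 : G) ∉ Set.range fun g : G => g * z * g⁻¹ := by
    rintro ⟨g, hg⟩
    simp only [mul_inv_eq_one, mul_eq_left] at hg
    exact h1 hg
  rw [← Set.ncard_insert_of_notMem hnot (Set.toFinite _), ← SetLike.coe_sort_coe, Nat.card_coe_set_eq]
  refine Set.ncard_le_ncard ?_ (Set.toFinite _)
  rintro x (rfl | ⟨g, rfl⟩)
  · exact N.one_mem
  · exact hN.conj_mem z hz g

theorem two_classes_le (N : Subgroup G) [hN : N.Normal] {z w : G} (hz : z ∈ N) (hw : w ∈ N) (h1 : z ≠ 1)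
    (h2 : w ≠ 1) (ho : orderOf z ≠ orderOf w) :
    (centralizer ({z} : Set G)).index + (centralizer ({w} : Set G)).index + 1 ≤ Nat.card N := by
  rw [card_conj_class, card_conj_class, Nat.card_coe_set_eq, Nat.card_coe_set_eq]
  have hd : Disjoint (Set.range fun g : G => g * z * g⁻¹) (Set.range fun g : G => g * w * g⁻¹) := by
    rw [Set.disjoint_left]
    rintro x ⟨g, rfl⟩ ⟨h, hh⟩
    refine ho ?_
    have e1 := orderOf_injective (MulAut.conj g).toMonoidHom (MulEquiv.injective _) z
    have e2 := orderOf_injective (MulAut.conj h).toMonoidHom (MulEquiv.injective _) w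
    simp only [MulEquiv.coe_toMonoidHom, MulAut.conj_apply] at e1 e2 hh
    rw [← e1, ← e2, hh]
  rw [← Set.ncard_union_eq hd (Set.toFinite _) (Set.toFinite _)]
  have hnot : (1 : G) ∉ (Set.range fun g : G => g * z * g⁻¹) ∪ Set.range fun g : G => g * w * g⁻¹ := by
    rintro (⟨g, hg⟩ | ⟨g, hg⟩) <;> simp only [mul_inv_eq_one, mul_eq_left] at hg
    · exact h1 hg
    · exact h2 hg
  rw [← Set.ncard_insert_of_notMem hnot (Set.toFinite _), ← SetLike.coe_sort_coe, Nat.card_coe_set_eq]
  refine Set.ncard_le_ncard ?_ (Set.toFinite _)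
  rintro x (rfl | ⟨g, rfl⟩ | ⟨g, rfl⟩)
  · exact N.one_mem
  · exact hN.conj_mem z hz g
  · exact hN.conj_mem w hw g

theorem exists_mem_prime_order (N : Subgroup G) {r : ℕ} (hr : r.Prime) (h : r ∣ Nat.card N) :
    ∃ z ∈ N, orderOf z = r := by
  haveI : Fact r.Prime := ⟨hr⟩
  obtain ⟨z, hz⟩ := exists_prime_orderOf_dvd_card' r h
  exact ⟨z, z.2, by rw [orderOf_coe, hz]⟩

theorem prime_mem_of_ne_one {z : G} (hz : z ≠ 1) : ∃ r, r.Prime ∧ r ∣ orderOf z :=
  Nat.exists_prime_and_dvd (fun h => hz (orderOf_eq_one_iff.1 h))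

namespace Ctx

variable {p n q m B : ℕ} {a b : G} (h : Ctx G p n q m B a b)
include h

theorem cop_mB : m.Coprime B := by
  rcases h.hmB with e | e <;> rw [e] <;> simp

theorem cop_qB : q.Coprime B := by
  rw [h.hqmB]; exact Nat.coprime_add_self_left.2 h.cop_mB

theorem cop_qm : q.Coprime m := by
  rw [h.hqmB, add_comm]; exact Nat.coprime_add_self_left.2 h.cop_mB.symm

theorem p_dvd_q : p ∣ q := h.hq ▸ dvd_pow_self p h.hn

theorem not_p_dvd_m : ¬ p ∣ m := fun hd => h.hp.not_dvd_one (h.cop_qm ▸ Nat.dvd_gcd h.p_dvd_q hd)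

theorem not_p_dvd_B : ¬ p ∣ B := fun hd => h.hp.not_dvd_one (h.cop_qB ▸ Nat.dvd_gcd h.p_dvd_q hd)

theorem not_two_dvd_m : ¬ 2 ∣ m := Nat.two_dvd_ne_zero.2 (Nat.odd_iff.1 h.hmodd)

theorem not_both {r : ℕ} (hr : r.Prime) (h1 : r ∣ m) (h2 : r ∣ B) : False :=
  hr.not_dvd_one (h.cop_mB ▸ Nat.dvd_gcd h1 h2)

theorem eq_p {r : ℕ} (hr : r.Prime) (hd : r ∣ q) : r = p :=
  (Nat.prime_dvd_prime_iff_eq hr h.hp).1 (hr.dvd_of_dvd_pow (h.hq ▸ hd))

theorem prime_cases {r : ℕ} (hr : r.Prime) (hd : r ∣ Nat.card G) : r = p ∨ r ∣ m ∨ r ∣ B := by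
  rw [h.hcard] at hd
  rcases hr.dvd_mul.1 hd with h1 | h1
  · rcases hr.dvd_mul.1 h1 with h1 | h1
    · rcases hr.dvd_mul.1 h1 with h1 | h1
      · exact Or.inr (Or.inr (h1.trans h.hBeven))
      · exact Or.inl (h.eq_p hr h1)
    · exact Or.inr (Or.inl h1)
  · exact Or.inr (Or.inr h1)

/-- Primes in commuting elements lie in the same component. -/
theorem comp {x : G} {s r : ℕ} (hs : s.Prime) (hr : r.Prime) (hne : s ≠ r) (hsx : s ∣ orderOf x)
    (hrC : r ∣ Nat.card (centralizer ({x} : Set G))) : s * r ∣ m ∨ s * r ∣ B := by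
  haveI : Fact r.Prime := ⟨hr⟩
  obtain ⟨y, hy, hyo⟩ := exists_mem_prime_order _ hr hrC
  rw [mem_centralizer_singleton_iff] at hy
  have hc : Commute (x ^ (orderOf x / s)) y := (show Commute x y from hy.symm).pow_left _
  have hz : orderOf (x ^ (orderOf x / s)) = s := orderOf_pow_orderOf_div (orderOf_pos x).ne' hsx
  have ho : orderOf (x ^ (orderOf x / s) * y) = s * r := by
    rw [hc.orderOf_mul_eq_mul_orderOf_of_coprime (by rw [hz, hyo]; exact (Nat.coprime_primes hs hr).2 hne), hz, hyo]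
  rcases h.hspec (x ^ (orderOf x / s) * y) with e | e | e <;> rw [ho] at e
  · exfalso
    have e1 := (Nat.prime_dvd_prime_iff_eq hs h.hp).1 ((dvd_mul_right s r).trans e)
    have e2 := (Nat.prime_dvd_prime_iff_eq hr h.hp).1 ((dvd_mul_left r s).trans e)
    exact hne (e1.trans e2.symm)
  · exact Or.inl e
  · exact Or.inr e

theorem cent_p {x : G} (h1 : x ≠ 1) (hx : orderOf x ∣ p) : Nat.card (centralizer ({x} : Set G)) ∣ q := by
  have hox : orderOf x = p := ((Nat.dvd_prime h.hp).1 hx).resolve_left (fun e => h1 (orderOf_eq_one_iff.1 e))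
  have hd : Nat.card (centralizer ({x} : Set G)) ∣ q * (2 * m * B) := by
    rw [show q * (2 * m * B) = Nat.card G by rw [h.hcard]; ring]
    exact Subgroup.card_subgroup_dvd_card _
  refine Nat.Coprime.dvd_of_dvd_mul_right (Nat.coprime_of_dvd fun r hr hrC hr2 => ?_) hd
  have hrp : r ≠ p := by
    rintro rfl
    rcases hr.dvd_mul.1 hr2 with h' | h'
    · rcases hr.dvd_mul.1 h' with h' | h'
      · exact h.hp2 ((Nat.prime_dvd_prime_iff_eq h.hp Nat.prime_two).1 h')
      · exact h.not_p_dvd_m h'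
    · exact h.not_p_dvd_B h'
  rcases h.comp h.hp hr (Ne.symm hrp) (by rw [hox]) hrC with e | e
  · exact h.not_p_dvd_m ((dvd_mul_right p r).trans e)
  · exact h.not_p_dvd_B ((dvd_mul_right p r).trans e)

theorem cent_m {x : G} (h1 : x ≠ 1) (hx : orderOf x ∣ m) : Nat.card (centralizer ({x} : Set G)) ∣ m := by
  obtain ⟨s, hs, hsx⟩ := prime_mem_of_ne_one h1
  have hd : Nat.card (centralizer ({x} : Set G)) ∣ m * (2 * q * B) := by
    rw [show m * (2 * q * B) = Nat.card G by rw [h.hcard]; ring]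
    exact Subgroup.card_subgroup_dvd_card _
  refine Nat.Coprime.dvd_of_dvd_mul_right (Nat.coprime_of_dvd fun r hr hrC hr2 => ?_) hd
  have hsm := hsx.trans hx
  have hrm : ¬ r ∣ m := by
    intro hm
    rcases hr.dvd_mul.1 hr2 with h' | h'
    · rcases hr.dvd_mul.1 h' with h' | h'
      · exact h.not_two_dvd_m ((Nat.prime_dvd_prime_iff_eq hr Nat.prime_two).1 h' ▸ hm)
      · exact h.not_p_dvd_m (h.eq_p hr h' ▸ hm)
    · exact h.not_both hr hm h'
  rcases h.comp hs hr (fun e => hrm (e ▸ hsm)) hsx hrC with e | e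
  · exact hrm ((dvd_mul_left r s).trans e)
  · exact h.not_both hs hsm ((dvd_mul_right s r).trans e)

theorem cent_B {x : G} (h1 : x ≠ 1) (hx : orderOf x ∣ B) : Nat.card (centralizer ({x} : Set G)) ∣ 2 * B := by
  obtain ⟨s, hs, hsx⟩ := prime_mem_of_ne_one h1
  have hd : Nat.card (centralizer ({x} : Set G)) ∣ (2 * B) * (q * m) := by
    rw [show (2 * B) * (q * m) = Nat.card G by rw [h.hcard]; ring]
    exact Subgroup.card_subgroup_dvd_card _
  refine Nat.Coprime.dvd_of_dvd_mul_right (Nat.coprime_of_dvd fun r hr hrC hr2 => ?_) hd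
  have hsB := hsx.trans hx
  have hrB : ¬ r ∣ B := by
    intro hB
    rcases hr.dvd_mul.1 hr2 with h' | h'
    · exact h.not_p_dvd_B (h.eq_p hr h' ▸ hB)
    · exact h.not_both hr h' hB
  rcases h.comp hs hr (fun e => hrB (e ▸ hsB)) hsx hrC with e | e
  · exact h.not_both hs ((dvd_mul_right s r).trans e) hsB
  · exact hrB ((dvd_mul_left r s).trans e)

theorem index_mul (H : Subgroup G) : H.index * Nat.card H = 2 * q * m * B := by
  rw [Subgroup.index_mul_card, h.hcard]

theorem index_p {x : G} (h1 : x ≠ 1) (hx : orderOf x ∣ p) : 2 * m * B ≤ (centralizer ({x} : Set G)).index := by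
  have hle := Nat.le_of_dvd (by have := h.hqmB; have := h.hm; omega) (h.cent_p h1 hx)
  have := h.index_mul (centralizer ({x} : Set G))
  refine Nat.le_of_mul_le_mul_right ?_ (show 0 < q by have := h.hqmB; have := h.hm; omega)
  calc 2 * m * B * q = _ := by ring
    _ = _ := this.symm
    _ ≤ _ := Nat.mul_le_mul_left _ hle

theorem index_m {x : G} (h1 : x ≠ 1) (hx : orderOf x ∣ m) : 2 * q * B ≤ (centralizer ({x} : Set G)).index := by
  have hle := Nat.le_of_dvd (by have := h.hm; omega) (h.cent_m h1 hx)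
  have := h.index_mul (centralizer ({x} : Set G))
  refine Nat.le_of_mul_le_mul_right ?_ (show 0 < m by have := h.hm; omega)
  calc 2 * q * B * m = _ := by ring
    _ = _ := this.symm
    _ ≤ _ := Nat.mul_le_mul_left _ hle

theorem index_B {x : G} (h1 : x ≠ 1) (hx : orderOf x ∣ B) : q * m ≤ (centralizer ({x} : Set G)).index := by
  have hle := Nat.le_of_dvd (by have := h.hB2; omega) (h.cent_B h1 hx)
  have := h.index_mul (centralizer ({x} : Set G))
  refine Nat.le_of_mul_le_mul_right ?_ (show 0 < 2 * B by have := h.hB2; omega)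
  calc q * m * (2 * B) = _ := by ring
    _ = _ := this.symm
    _ ≤ _ := Nat.mul_le_mul_left _ hle

/-- A non-trivial normal subgroup is not of one type only. -/
theorem not_single (N : Subgroup G) [N.Normal] (hne : N ≠ ⊥)
    (hd : Nat.card N ∣ q ∨ Nat.card N ∣ m ∨ Nat.card N ∣ 2 * B) : False := by
  obtain ⟨z, hz, hz1⟩ := N.bot_or_exists_ne_one.resolve_left hne
  have hcl := class_add_one_le N hz hz1
  have hzN : orderOf z ∣ Nat.card N := by
    rw [← orderOf_mk z hz]; exact orderOf_dvd_natCard _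
  have hN := hzN
  have hm := h.hm; have hB := h.hB2; have hqmB := h.hqmB
  have hmB : m ≤ B + 1 ∧ B ≤ m + 1 := by rcases h.hmB with e | e <;> omega
  rcases h.hspec z with e | e | e
  · have := h.index_p hz1 e
    have hle : Nat.card N ≤ 2 * q := by
      rcases hd with e | e | e <;> have := Nat.le_of_dvd (by omega) e <;> omega
    nlinarith
  · have := h.index_m hz1 e
    have hle : Nat.card N ≤ 2 * q := by
      rcases hd with e | e | e <;> have := Nat.le_of_dvd (by omega) e <;> omega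
    nlinarith
  · have := h.index_B hz1 e
    have hle : Nat.card N ≤ 2 * q := by
      rcases hd with e | e | e <;> have := Nat.le_of_dvd (by omega) e <;> omega
    nlinarith

/-- A non-trivial normal subgroup has order divisible by `p` and by primes dividing `m` and `B`. -/
theorem three_types (N : Subgroup G) [N.Normal] (hne : N ≠ ⊥) :
    p ∣ Nat.card N ∧ (∃ s, s.Prime ∧ s ∣ m ∧ s ∣ Nat.card N) ∧ ∃ r, r.Prime ∧ r ∣ B ∧ r ∣ Nat.card N := by
  haveI : Fact p.Prime := ⟨h.hp⟩
  have hdG : Nat.card N ∣ 2 * q * m * B := h.hcard ▸ Subgroup.card_subgroup_dvd_card N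
  have hm := h.hm; have hB := h.hB2; have hqmB := h.hqmB
  have hmB : m ≤ B + 1 ∧ B ≤ m + 1 := by rcases h.hmB with e | e <;> omega
  obtain ⟨z, hz, hz1⟩ := N.bot_or_exists_ne_one.resolve_left hne
  have hp : p ∣ Nat.card N := by
    by_contra hp
    have hcl := class_add_one_le N hz hz1
    have hqm : q * m ≤ (centralizer ({z} : Set G)).index := by
      rcases h.hspec z with e | e | e
      · refine absurd ?_ hp
        rw [← ((Nat.dvd_prime h.hp).1 e).resolve_left (fun e => hz1 (orderOf_eq_one_iff.1 e)), ← orderOf_mk z hz]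
        exact orderOf_dvd_natCard _
      · exact le_trans (by nlinarith) (h.index_m hz1 e)
      · exact h.index_B hz1 e
    have hcop : (Nat.card N).Coprime q := by
      rw [h.hq]; exact ((Nat.Prime.coprime_iff_not_dvd h.hp).2 hp).symm.pow_right n
    have hd : Nat.card N ∣ 2 * m * B :=
      hcop.dvd_of_dvd_mul_left (by rw [show q * (2 * m * B) = 2 * q * m * B by ring]; exact hdG)
    obtain ⟨c, hc⟩ := hd
    have hc1 : c = 1 := by
      rcases c with _ | _ | c
      · simp at hc; omega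
      · rfl
      · exfalso
        have : 2 * (q * m + 1) ≤ 2 * m * B := hc ▸ by nlinarith
        nlinarith
    subst hc1
    rw [mul_one] at hc
    obtain ⟨S⟩ := (inferInstance : Nonempty (Sylow p G))
    have hS : Nat.card S = q := by
      rw [Sylow.card_eq_multiplicity, h.hcard, h.hq,
        show 2 * p ^ n * m * B = p ^ n * (2 * m * B) by ring,
        Nat.factorization_mul (pow_ne_zero _ h.hp.ne_zero) (by positivity)]
      have hnd : ¬ p ∣ 2 * m * B := fun hh => hp (hc ▸ hh)
      simp [Nat.factorization_eq_zero_of_not_dvd hnd, h.hp.factorization_self]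
    have hfree := Cfsg.Agent.FGS2.Order7920.free_dvd (S : Subgroup G) N
      (fun x _ => by rw [Subgroup.normalizer_eq_top N]; trivial) (fun s hs hs1 x hx hx1 hsx => by
        have hsS : orderOf (⟨s, hs⟩ : (S : Subgroup G)) ∣ p ^ n := by rw [← h.hq, ← hS]; exact orderOf_dvd_natCard _
        rw [orderOf_mk] at hsS
        obtain ⟨i, -, hi⟩ := (Nat.dvd_prime_pow h.hp).1 hsS
        have hso : p ∣ orderOf s := by
          rcases i with _ | i
          · exact absurd (orderOf_eq_one_iff.1 (by simpa using hi)) hs1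
          · exact hi ▸ dvd_pow_self p (by omega)
        have hpC : p ∣ Nat.card (centralizer ({x} : Set G)) := by
          have := orderOf_dvd_natCard (⟨s, mem_centralizer_singleton_iff.2 hsx.eq⟩ : centralizer ({x} : Set G))
          rw [orderOf_mk] at this
          exact hso.trans this
        have hxN : orderOf x ∣ Nat.card N := by rw [← orderOf_mk x hx]; exact orderOf_dvd_natCard _
        rcases h.hspec x with e | e | e
        · exact hp ((((Nat.dvd_prime h.hp).1 e).resolve_left (fun e => hx1 (orderOf_eq_one_iff.1 e))) ▸ hxN)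
        · exact h.not_p_dvd_m (hpC.trans (h.cent_m hx1 e))
        · rcases h.hp.dvd_mul.1 (hpC.trans (h.cent_B hx1 e)) with e | e
          · exact h.hp2 ((Nat.prime_dvd_prime_iff_eq h.hp Nat.prime_two).1 e)
          · exact h.not_p_dvd_B e)
    rw [hS, ← hc] at hfree
    obtain ⟨k, hk⟩ := hfree
    have h4 : 2 * (2 * m * B) + 1 = q * q := by rcases h.hmB with e | e <;> subst e <;> subst hqmB <;> ring
    have hge : 1 ≤ 2 * m * B := Nat.one_le_iff_ne_zero.2 (by positivity)
    have hk' : 2 * (q * k) + 3 = q * q := by omega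
    have h3 : q ∣ 3 := (Nat.dvd_add_right ⟨2 * k, by ring⟩).1 (hk' ▸ dvd_mul_right q q)
    have := Nat.le_of_dvd (by norm_num) h3
    omega
  obtain ⟨zp, hzp, hzpo⟩ := exists_mem_prime_order N h.hp hp
  have hzp1 : zp ≠ 1 := fun e => h.hp.ne_one (by rw [← hzpo, e, orderOf_one])
  refine ⟨hp, ?_, ?_⟩ <;> by_contra hne' <;> push Not at hne'
  · -- no prime of `m`
    have hcm : (Nat.card N).Coprime m := Nat.coprime_of_dvd fun r hr h1 h2 => hne' r hr h2 h1
    have hd : Nat.card N ∣ 2 * q * B :=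
      hcm.dvd_of_dvd_mul_left (by rw [show m * (2 * q * B) = 2 * q * m * B by ring]; exact hdG)
    by_cases hB' : (Nat.card N).Coprime (2 * B)
    · exact h.not_single N hne (Or.inl (hB'.dvd_of_dvd_mul_left
        (by rw [show 2 * B * q = 2 * q * B by ring]; exact hd)))
    obtain ⟨r, hr, hrN, hr2⟩ := Nat.Prime.not_coprime_iff_dvd.1 hB'
    have hrB : r ∣ B := by
      rcases hr.dvd_mul.1 hr2 with e | e
      · exact e.trans h.hBeven
      · exact e
    obtain ⟨w, hw, hwo⟩ := exists_mem_prime_order N hr hrN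
    have hw1 : w ≠ 1 := fun e => hr.ne_one (by rw [← hwo, e, orderOf_one])
    have h2c := two_classes_le N hzp hw hzp1 hw1 (by rw [hzpo, hwo]; exact fun e => h.not_p_dvd_B (e ▸ hrB))
    have i1 := h.index_p hzp1 (by rw [hzpo])
    have i2 := h.index_B hw1 (by rw [hwo]; exact hrB)
    obtain ⟨c, hc⟩ := hd
    rcases c with _ | _ | c
    · simp at hc; omega
    · rw [zero_add, mul_one] at hc
      have hfree := Cfsg.Agent.FGS2.Order7920.free_dvd (zpowers a) N
        (fun x _ => by rw [Subgroup.normalizer_eq_top N]; trivial) (fun s hs hs1 x hx hx1 hsx => by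
          have hsm : orderOf s ∣ m := by
            exact h.ha ▸ orderOf_dvd_of_mem_zpowers hs
          have hxC : orderOf x ∣ Nat.card (centralizer ({s} : Set G)) := by
            have := orderOf_dvd_natCard (⟨x, mem_centralizer_singleton_iff.2 hsx.eq.symm⟩ : centralizer ({s} : Set G))
            rwa [orderOf_mk] at this
          have hxN : orderOf x ∣ Nat.card N := by rw [← orderOf_mk x hx]; exact orderOf_dvd_natCard _
          exact hx1 (orderOf_eq_one_iff.1 (Nat.dvd_one.1 (hcm ▸ Nat.dvd_gcd hxN (hxC.trans (h.cent_m hs1 hsm))))))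
      rw [Nat.card_zpowers, h.ha, ← hc] at hfree
      obtain ⟨k, hk⟩ := hfree
      have hz2 : ((2 * q * B : ℕ) : ℤ) = (m : ℤ) * k + 1 := by omega
      push_cast at hz2
      have hqz : (q : ℤ) = m + B := by exact_mod_cast hqmB
      have h1 : (m : ℤ) ∣ 1 := by
        rcases h.hmB with e | e
        · have ez : (m : ℤ) = B + 1 := by exact_mod_cast e
          exact ⟨(k : ℤ) - 2 * B - 2 * B + 2, by rw [hqz] at hz2; nlinarith [hz2, ez]⟩
        · have ez : (B : ℤ) = m + 1 := by exact_mod_cast e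
          exact ⟨(k : ℤ) - 2 * B - 2 * m - 4, by rw [hqz] at hz2; nlinarith [hz2, ez]⟩
      have := Int.le_of_dvd one_pos h1
      omega
    · have hle : 2 * Nat.card N ≤ 2 * q * B := hc ▸ by nlinarith
      rcases h.hmB with e | e <;> subst e <;> subst hqmB <;> nlinarith
  · -- no prime of `B`
    have hcB : (Nat.card N).Coprime (2 * B) := Nat.coprime_of_dvd fun r hr h1 h2 => by
      rcases hr.dvd_mul.1 h2 with e | e
      · exact hne' r hr (e.trans h.hBeven) h1
      · exact hne' r hr e h1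
    have hd : Nat.card N ∣ q * m :=
      hcB.dvd_of_dvd_mul_left (by rw [show 2 * B * (q * m) = 2 * q * m * B by ring]; exact hdG)
    by_cases hm' : (Nat.card N).Coprime m
    · exact h.not_single N hne (Or.inl (hm'.dvd_of_dvd_mul_right hd))
    obtain ⟨s, hs, hsN, hsm⟩ := Nat.Prime.not_coprime_iff_dvd.1 hm'
    obtain ⟨w, hw, hwo⟩ := exists_mem_prime_order N hs hsN
    have hw1 : w ≠ 1 := fun e => hs.ne_one (by rw [← hwo, e, orderOf_one])
    have hcl := class_add_one_le N hw hw1
    have i2 := h.index_m hw1 (by rw [hwo]; exact hsm)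
    have := Nat.le_of_dvd (Nat.mul_pos (by omega) (by omega)) hd
    nlinarith

/-- A normal subgroup of prime-power order is trivial. -/
theorem eq_bot_of_isPGroup (N : Subgroup G) [N.Normal] {r : ℕ} [Fact r.Prime] (hN : IsPGroup r N) : N = ⊥ := by
  by_contra hne
  obtain ⟨hp, ⟨s, hs, hsm, hsN⟩, -⟩ := h.three_types N hne
  obtain ⟨k, hk⟩ := IsPGroup.iff_card.1 hN
  rw [hk] at hp hsN
  have e1 := (Nat.prime_dvd_prime_iff_eq h.hp (Fact.out : r.Prime)).1 (h.hp.dvd_of_dvd_pow hp)
  have e2 := (Nat.prime_dvd_prime_iff_eq hs (Fact.out : r.Prime)).1 (hs.dvd_of_dvd_pow hsN)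
  exact h.not_p_dvd_m ((e2.trans e1.symm) ▸ hsm)

end Ctx

end Cfsg.Agent.SmallOrder.PSL2Spec
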