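import Cfsg.Agent.SmallOrder.PSL2Spec.Simple

/-!
# The centraliser of the involution in the even torus
-/

set_option autoImplicit false
set_option linter.unusedSectionVars false

namespace Cfsg.Agent.SmallOrder.PSL2Spec

open Subgroup

variable {G : Type*} [Group G] [Finite G]

theorem conj_commute_iff (h x y : G) : (h * x * h⁻¹) * (h * y * h⁻¹) = (h * y * h⁻¹) * (h * x * h⁻¹) ↔ x * y = y * x := by
  constructor <;> intro e
  · have := congrArg (fun z => h⁻¹ * z * h) e
    simpa [mul_assoc] using this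
  · rw [show (h * x * h⁻¹) * (h * y * h⁻¹) = h * (x * y) * h⁻¹ by group, e]; group

theorem orderOf_conj' (h x : G) : orderOf (h * x * h⁻¹) = orderOf x := by
  simpa using orderOf_injective (MulAut.conj h).toMonoidHom (MulEquiv.injective _) x

/-- A subgroup acting freely off the base point of a coset space. -/
theorem card_dvd_index_sub_one (D H : Subgroup G) (hD : D ≤ H)
    (hfree : ∀ g : G, g ∉ H → ∀ k ∈ D, g⁻¹ * k * g ∈ H → k = 1) : Nat.card D ∣ H.index - 1 := by
  classical
  let o : G ⧸ H := ((1 : G) : G ⧸ H)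
  have hfix : ∀ k : D, (k : G) • o = o := fun k => by
    show (((k : G) * 1 : G) : G ⧸ H) = ((1 : G) : G ⧸ H)
    rw [QuotientGroup.eq]
    simpa using H.inv_mem (hD k.2)
  letI : MulAction D {x : G ⧸ H // x ≠ o} :=
    { smul := fun k x => ⟨(k : G) • x.1, fun e => x.2 (smul_left_cancel (k : G) (e.trans (hfix k).symm))⟩
      one_smul := fun x => Subtype.ext (one_smul G x.1)
      mul_smul := fun k l x => Subtype.ext (mul_smul (k : G) (l : G) x.1) }
  have hstab : ∀ x : {x : G ⧸ H // x ≠ o}, MulAction.stabilizer D x = ⊥ := by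
    rintro ⟨x, hx⟩
    obtain ⟨g, rfl⟩ := QuotientGroup.mk_surjective x
    rw [Subgroup.eq_bot_iff_forall]
    intro k hk
    have hk' : (((k : G) * g : G) : G ⧸ H) = (g : G ⧸ H) := congrArg Subtype.val hk
    refine Subtype.ext (hfree g (fun hg => hx ?_) k k.2 ?_)
    · exact QuotientGroup.eq.2 (by simpa using H.inv_mem hg)
    · have := H.inv_mem (QuotientGroup.eq.1 hk')
      simpa [mul_assoc] using this
  haveI := Fintype.ofFinite (MulAction.orbitRel.Quotient D {x : G ⧸ H // x ≠ o})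
  have hcard : Nat.card {x : G ⧸ H // x ≠ o} = H.index - 1 := by
    haveI := Fintype.ofFinite (G ⧸ H)
    rw [Subgroup.index_eq_card, Nat.card_eq_fintype_card, Nat.card_eq_fintype_card, Fintype.card_subtype_compl,
      Fintype.card_subtype_eq]
  rw [← hcard, Nat.card_congr (MulAction.selfEquivSigmaOrbits D {x : G ⧸ H // x ≠ o}), Nat.card_sigma]
  refine Finset.dvd_sum fun ω _ => ?_
  rw [Nat.card_congr (MulAction.orbitEquivQuotientStabilizer D ω.out), hstab, ← Subgroup.index_eq_card,
    Subgroup.index_bot]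

/-- The involution in the even torus. -/
abbrev tinv (B : ℕ) (b : G) : G := b ^ (B / 2)

namespace Ctx

variable {p n q m B : ℕ} {a b : G} (h : Ctx G p n q m B a b)
include h

local notation "t₀" => tinv B b
local notation "C₀" => centralizer ({tinv B b} : Set G)

theorem orderOf_tinv : orderOf t₀ = 2 := by
  rw [tinv, orderOf_pow' b (by have := h.hB2; omega), h.hb, Nat.gcd_eq_right (Nat.div_dvd_of_dvd h.hBeven),
    Nat.div_div_self h.hBeven (by have := h.hB2; omega)]

theorem tinv_ne_one : t₀ ≠ 1 := fun e => by simpa [e] using h.orderOf_tinv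

theorem eq_tinv {y : G} (hy : y ∈ zpowers b) (hy2 : y * y = 1) : y = 1 ∨ y = t₀ := by
  obtain ⟨i, rfl⟩ := hy
  simp only at hy2 ⊢
  rw [← zpow_add, ← orderOf_dvd_iff_zpow_eq_one, h.hb] at hy2
  obtain ⟨c, hc⟩ := hy2
  obtain ⟨k, hk⟩ := h.hBeven
  have hk2 : B / 2 = k := by omega
  have hi : i = (k : ℤ) * c := by
    have : (B : ℤ) = 2 * k := by exact_mod_cast hk
    rw [this] at hc
    linarith
  have e2 : t₀ ^ (2 : ℤ) = 1 := by
    rw [show (2 : ℤ) = ((2 : ℕ) : ℤ) from rfl, zpow_natCast]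
    exact h.orderOf_tinv ▸ pow_orderOf_eq_one t₀
  have hy : b ^ i = t₀ ^ c := by rw [hi, zpow_mul, zpow_natCast, tinv, hk2]
  rw [hy]
  rcases Int.even_or_odd' c with ⟨j, rfl | rfl⟩
  · exact Or.inl (by rw [zpow_mul, e2, one_zpow])
  · exact Or.inr (by rw [zpow_add_one, zpow_mul, e2, one_zpow, one_mul])

theorem zpowers_le_cent : zpowers b ≤ C₀ := fun x hx => mem_centralizer_singleton_iff.2 (by
  obtain ⟨i, rfl⟩ := hx
  exact ((Commute.refl b).zpow_left i |>.pow_right (B / 2)).eq)

theorem tinv_mem : t₀ ∈ zpowers b := Subgroup.npow_mem_zpowers b _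

theorem dvd_cent_B : orderOf t₀ ∣ B := by rw [h.orderOf_tinv]; exact h.hBeven

theorem exists_sylow : ∃ T : Sylow 2 G, t₀ ∈ (T : Subgroup G) ∧ (T : Subgroup G) ≤ C₀ := by
  haveI : Fact (Nat.Prime 2) := ⟨Nat.prime_two⟩
  have hB0 : B ≠ 0 := by have := h.hB2; omega
  set f := B.factorization 2 with hf
  have hf1 : 1 ≤ f := Nat.prime_two.factorization_pos_of_dvd hB0 h.hBeven
  set c := b ^ (orderOf b / 2 ^ f) with hc
  have hco : orderOf c = 2 ^ f :=
    orderOf_pow_orderOf_div (orderOf_pos b).ne' (h.hb.symm ▸ Nat.ordProj_dvd B 2)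
  obtain ⟨T, hT⟩ := (IsPGroup.of_card (G := zpowers c) (n := f) (by rw [Nat.card_zpowers, hco])).exists_le_sylow
  have hcard : Nat.card (T : Subgroup G) = 2 * Nat.card (zpowers c) := by
    have hqm : ¬ 2 ∣ q * m := fun hd => by
      rcases Nat.prime_two.dvd_mul.1 hd with e | e
      · exact h.hp2 (h.eq_p Nat.prime_two e).symm
      · exact h.not_two_dvd_m e
    have hqm0 : q * m ≠ 0 := fun e => hqm (by rw [e]; exact dvd_zero 2)
    rw [Sylow.card_eq_multiplicity, Nat.card_zpowers, hco, h.hcard,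
      show 2 * q * m * B = 2 * (q * m * B) by ring,
      Nat.factorization_mul two_ne_zero (mul_ne_zero hqm0 hB0), Nat.factorization_mul hqm0 hB0]
    simp [Nat.factorization_eq_zero_of_not_dvd hqm, Nat.prime_two.factorization_self, ← hf, pow_add, mul_comm]
  have hidx : ((zpowers c).subgroupOf (T : Subgroup G)).index = 2 := by
    have h1 := ((zpowers c).subgroupOf (T : Subgroup G)).card_mul_index
    rw [Nat.card_congr (subgroupOfEquivOfLe hT).toEquiv, hcard, mul_comm 2] at h1
    exact Nat.eq_of_mul_eq_mul_left Nat.card_pos h1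
  haveI := Subgroup.normal_of_index_eq_two hidx
  have ht : t₀ ∈ zpowers c := by
    have hc2 : (c ^ (2 ^ (f - 1))) * (c ^ (2 ^ (f - 1))) = 1 := by
      rw [← pow_add, ← two_mul, ← pow_succ', Nat.sub_add_cancel hf1, ← hco, pow_orderOf_eq_one]
    rcases h.eq_tinv (Subgroup.pow_mem _ (Subgroup.npow_mem_zpowers b _) _) hc2 with e | e
    · exfalso
      rw [← orderOf_dvd_iff_pow_eq_one, hco] at e
      have := (Nat.pow_dvd_pow_iff_le_right one_lt_two).1 e
      omega
    · exact e ▸ Subgroup.npow_mem_zpowers c _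
  refine ⟨T, hT ht, fun x hx => mem_centralizer_singleton_iff.2 ?_⟩
  have h1 : x * t₀ * x⁻¹ ∈ zpowers c := by
    have := (inferInstance : ((zpowers c).subgroupOf (T : Subgroup G)).Normal).conj_mem ⟨t₀, hT ht⟩
      (mem_subgroupOf.2 ht) ⟨x, hx⟩
    exact mem_subgroupOf.1 this
  have hle : zpowers c ≤ zpowers b := zpowers_le.2 (Subgroup.npow_mem_zpowers b _)
  rcases h.eq_tinv (hle h1) (by
    rw [show x * t₀ * x⁻¹ * (x * t₀ * x⁻¹) = x * (t₀ * t₀) * x⁻¹ by group,
      ← pow_two t₀, ← h.orderOf_tinv, pow_orderOf_eq_one, mul_one, mul_inv_cancel]) with e | e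
  · rw [mul_inv_eq_one, mul_eq_left] at e
    exact absurd e h.tinv_ne_one
  · exact mul_inv_eq_iff_eq_mul.1 e

theorem card_cent : Nat.card C₀ = 2 * B := by
  haveI : Fact (Nat.Prime 2) := ⟨Nat.prime_two⟩
  have hB := h.hB2
  obtain ⟨T, -, hT⟩ := h.exists_sylow
  have h1 := h.cent_B h.tinv_ne_one h.dvd_cent_B
  have h2 : B ∣ Nat.card C₀ := by
    have := Subgroup.card_dvd_of_le h.zpowers_le_cent
    rwa [Nat.card_zpowers, h.hb] at this
  obtain ⟨c, hc⟩ := h2
  rw [hc, mul_comm 2 B, Nat.mul_dvd_mul_iff_left (by omega)] at h1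
  rcases (Nat.dvd_prime Nat.prime_two).1 h1 with rfl | rfl
  · exfalso
    rw [mul_one] at hc
    have h3 := Subgroup.card_dvd_of_le hT
    rw [hc, Sylow.card_eq_multiplicity, Nat.Prime.pow_dvd_iff_le_factorization Nat.prime_two (by omega)] at h3
    have hqm : ¬ 2 ∣ q * m := fun hd => by
      rcases Nat.prime_two.dvd_mul.1 hd with e | e
      · exact h.hp2 (h.eq_p Nat.prime_two e).symm
      · exact h.not_two_dvd_m e
    have hqm0 : q * m ≠ 0 := fun e => hqm (by rw [e]; exact dvd_zero 2)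
    rw [h.hcard, show 2 * q * m * B = 2 * (q * m * B) by ring,
      Nat.factorization_mul two_ne_zero (mul_ne_zero hqm0 (by omega)), Nat.factorization_mul hqm0 (by omega)] at h3
    simp [Nat.factorization_eq_zero_of_not_dvd hqm, Nat.prime_two.factorization_self] at h3
  · rw [hc, mul_comm]

theorem index_subgroupOf : ((zpowers b).subgroupOf C₀).index = 2 := by
  have h1 := ((zpowers b).subgroupOf C₀).card_mul_index
  rw [Nat.card_congr (subgroupOfEquivOfLe h.zpowers_le_cent).toEquiv, Nat.card_zpowers, h.hb, h.card_cent,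
    mul_comm 2] at h1
  exact Nat.eq_of_mul_eq_mul_left (by have := h.hB2; omega) h1

theorem mul_mem_iff {x y : G} (hx : x ∈ C₀) (hy : y ∈ C₀) : x * y ∈ zpowers b ↔ (x ∈ zpowers b ↔ y ∈ zpowers b) := by
  have := Subgroup.mul_mem_iff_of_index_two h.index_subgroupOf (a := ⟨x, hx⟩) (b := ⟨y, hy⟩)
  simpa [mem_subgroupOf] using this

theorem sq_mem {x : G} (hx : x ∈ C₀) : x * x ∈ zpowers b := (h.mul_mem_iff hx hx).2 Iff.rfl

theorem conj_mem {x y : G} (hx : x ∈ C₀) (hy : y ∈ zpowers b) : x * y * x⁻¹ ∈ zpowers b := by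
  have hy' := h.zpowers_le_cent hy
  rw [h.mul_mem_iff (mul_mem hx hy') (inv_mem hx), h.mul_mem_iff hx hy', inv_mem_iff]
  tauto

theorem mem_of_pow_odd {x : G} (hx : x ∈ C₀) {k : ℕ} (hk : Odd k) (hxk : x ^ k ∈ zpowers b) : x ∈ zpowers b := by
  obtain ⟨j, rfl⟩ := hk
  rw [pow_succ, pow_mul, pow_two] at hxk
  exact ((h.mul_mem_iff (Subgroup.pow_mem _ (mul_mem hx hx) _) hx).1 hxk).1 ((zpowers b).pow_mem (h.sq_mem hx) j)

theorem mem_of_odd {x : G} (hx : x ∈ C₀) (hodd : Odd (orderOf x)) : x ∈ zpowers b :=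
  h.mem_of_pow_odd hx hodd (by rw [pow_orderOf_eq_one]; exact one_mem _)

/-- The normaliser of the torus fixes the involution. -/
theorem mem_cent_of_normalizes {x : G} (hx : ∀ y ∈ zpowers b, x * y * x⁻¹ ∈ zpowers b) : x ∈ C₀ := by
  rw [mem_centralizer_singleton_iff]
  have h2 : t₀ * t₀ = 1 := by rw [← pow_two, ← h.orderOf_tinv, pow_orderOf_eq_one]
  rcases h.eq_tinv (hx _ h.tinv_mem) (by
    rw [show x * t₀ * x⁻¹ * (x * t₀ * x⁻¹) = x * (t₀ * t₀) * x⁻¹ by group, h2, mul_one, mul_inv_cancel]) with e | e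
  · rw [mul_inv_eq_one, mul_eq_left] at e
    exact absurd e h.tinv_ne_one
  · exact mul_inv_eq_iff_eq_mul.1 e

theorem orderOf_dvd_B {y : G} (hy : y ∈ zpowers b) : orderOf y ∣ B :=
  h.hb ▸ orderOf_dvd_of_mem_zpowers hy

theorem commute_torus {x y : G} (hx : x ∈ zpowers b) (hy : y ∈ zpowers b) : x * y = y * x := by
  obtain ⟨i, rfl⟩ := hx
  obtain ⟨j, rfl⟩ := hy
  exact (Commute.zpow_zpow (Commute.refl b) i j).eq

/-- An element of the torus fixed from outside has the centraliser of the involution. -/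
theorem cent_eq_of_fixed {y u : G} (hy : y ∈ zpowers b) (hy1 : y ≠ 1) (hu : u ∈ C₀) (hu' : u ∉ zpowers b)
    (huy : u * y = y * u) : centralizer ({y} : Set G) = C₀ := by
  have hB := h.hB2
  have hle : zpowers b ≤ centralizer ({y} : Set G) := fun x hx =>
    mem_centralizer_singleton_iff.2 (h.commute_torus hx hy)
  set K := centralizer ({y} : Set G) ⊓ C₀ with hK
  have h1 : zpowers b < K := lt_of_le_of_ne (le_inf hle h.zpowers_le_cent)
    (fun e => hu' (e ▸ ⟨mem_centralizer_singleton_iff.2 huy, hu⟩))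
  have h2 : B ∣ Nat.card K := by
    have := Subgroup.card_dvd_of_le h1.le
    rwa [Nat.card_zpowers, h.hb] at this
  have h3 : Nat.card K ∣ 2 * B := h.card_cent ▸ Subgroup.card_dvd_of_le inf_le_right
  have h4 : Nat.card K = 2 * B := by
    obtain ⟨c, hc⟩ := h2
    rw [hc, mul_comm 2 B, Nat.mul_dvd_mul_iff_left (by omega)] at h3
    rcases (Nat.dvd_prime Nat.prime_two).1 h3 with rfl | rfl
    · exfalso
      exact h1.ne (Subgroup.eq_of_le_of_card_ge h1.le (by rw [hc, Nat.card_zpowers, h.hb, mul_one]))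
    · rw [hc, mul_comm]
  have e1 : K = C₀ := Subgroup.eq_of_le_of_card_ge inf_le_right (by rw [h4, h.card_cent])
  symm
  refine Subgroup.eq_of_le_of_card_ge (e1 ▸ inf_le_left) ?_
  rw [h.card_cent]
  exact Nat.le_of_dvd (by omega) (h.cent_B hy1 (h.orderOf_dvd_B hy))

/-- The bad case: an abelian involution centraliser containing an element of odd prime order. -/
theorem not_abelian_cent {s g₀ : G} (hs : s ∈ C₀) (hs' : s ∉ zpowers b) (hss : s * s = 1)
    (hg₀ : g₀ * s * g₀⁻¹ = t₀) (hab : ∀ x ∈ C₀, ∀ y ∈ C₀, x * y = y * x)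
    (hCs : centralizer ({s} : Set G) = C₀) (hB4 : B / 2 ≠ 1) (hBodd : ¬ 4 ∣ B) : False := by
  haveI : Fact (Nat.Prime 2) := ⟨Nat.prime_two⟩
  have hB := h.hB2
  set D := C₀ with hDdef
  have htD : t₀ ∈ D := mem_centralizer_singleton_iff.2 rfl
  have ht2 : t₀ * t₀ = 1 := by rw [← pow_two, ← h.orderOf_tinv, pow_orderOf_eq_one]
  have hst : s ≠ t₀ := fun e => hs' (e ▸ h.tinv_mem)
  have hD : ∀ k ∈ D, k ≠ 1 → centralizer ({k} : Set G) = D := by
    intro k hk hk1
    symm
    refine Subgroup.eq_of_le_of_card_ge (fun y hy => mem_centralizer_singleton_iff.2 (hab y hy k hk)) ?_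
    rw [h.card_cent]
    refine Nat.le_of_dvd (by omega) (h.cent_B hk1 ?_)
    have hd : orderOf k ∣ 2 * B := by
      have := orderOf_dvd_natCard (⟨k, hk⟩ : D)
      rwa [orderOf_mk, h.card_cent] at this
    obtain ⟨r, hr, hrk⟩ := prime_mem_of_ne_one hk1
    have hrB : r ∣ B := by
      rcases hr.dvd_mul.1 (hrk.trans hd) with e | e
      · exact e.trans h.hBeven
      · exact e
    rcases h.hspec k with e | e | e
    · exact absurd ((Nat.prime_dvd_prime_iff_eq hr h.hp).1 (hrk.trans e) ▸ hrB) h.not_p_dvd_B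
    · exact (h.not_both hr (hrk.trans e) hrB).elim
    · exact e
  set H := normalizer (D : Set G) with hH
  have hDH : D ≤ H := le_normalizer
  set D' := D.subgroupOf H with hD'
  have hcent : centralizer ({(⟨t₀, hDH htD⟩ : H)} : Set H) = D' := by
    ext x
    rw [mem_centralizer_singleton_iff, hD', mem_subgroupOf, hDdef, mem_centralizer_singleton_iff]
    exact Subtype.ext_iff
  have hk3 : D'.index = 3 := by
    have h1 : D'.index = Nat.card (Set.range fun g : H => g * ⟨t₀, hDH htD⟩ * g⁻¹) := by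
      rw [← hcent, card_conj_class]
    have hinvols : ∀ u ∈ D, u * u = 1 → u ≠ 1 → u = t₀ ∨ u = s ∨ u = s * t₀ := by
      intro u hu hu2 hu1
      by_cases huH : u ∈ zpowers b
      · exact Or.inl ((h.eq_tinv huH hu2).resolve_left hu1)
      have hsu : s * u ∈ zpowers b := (h.mul_mem_iff hs hu).2 (iff_of_false hs' huH)
      have h2 : s * u * (s * u) = 1 := by
        rw [show s * u * (s * u) = s * (u * s) * u by group, hab u hu s hs,
          show s * (s * u) * u = (s * s) * (u * u) by group, hss, hu2, one_mul]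
      have hu' : u = s * (s * u) := by rw [← mul_assoc, hss, one_mul]
      rcases h.eq_tinv hsu h2 with e | e <;> rw [e] at hu'
      · exact Or.inr (Or.inl (by rw [hu', mul_one]))
      · exact Or.inr (Or.inr hu')
    have hle3 : D'.index ≤ 3 := by
      rw [h1, Nat.card_coe_set_eq, ← Set.ncard_image_of_injective _ H.subtype_injective]
      refine le_trans (Set.ncard_le_ncard (t := {t₀, s, s * t₀}) ?_ (Set.toFinite _)) ?_
      · rintro _ ⟨_, ⟨g, rfl⟩, rfl⟩
        refine hinvols _ ?_ ?_ ?_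
        · exact (mem_normalizer_iff.1 g.2 t₀).1 htD
        · show (g : G) * t₀ * (g : G)⁻¹ * ((g : G) * t₀ * (g : G)⁻¹) = 1
          rw [show (g : G) * t₀ * (g : G)⁻¹ * ((g : G) * t₀ * (g : G)⁻¹) = g * (t₀ * t₀) * (g : G)⁻¹ by group,
            ht2, mul_one, mul_inv_cancel]
        · intro e
          have e' : (g : G) * t₀ * (g : G)⁻¹ = 1 := e
          rw [mul_inv_eq_one, mul_eq_left] at e'
          exact h.tinv_ne_one e'
      · exact (Set.ncard_insert_le _ _).trans (by have := Set.ncard_insert_le s {s * t₀}; simp at this ⊢; omega)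
    have hge2 : 2 ≤ D'.index := by
      rw [h1, Nat.card_coe_set_eq]
      have hg : g₀⁻¹ ∈ H := by
        rw [hH, mem_normalizer_iff]
        intro x
        rw [inv_inv]
        have hCs' : centralizer ({s} : Set G) = centralizer ({tinv B b} : Set G) := hCs
        constructor
        · intro hx
          show g₀⁻¹ * x * g₀ ∈ centralizer ({tinv B b} : Set G)
          rw [← hCs', mem_centralizer_singleton_iff]
          replace hx : x ∈ centralizer ({tinv B b} : Set G) := hx
          rw [mem_centralizer_singleton_iff, ← hg₀] at hx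
          exact (conj_commute_iff g₀ _ _).1 (by simpa [mul_assoc] using hx)
        · intro hx
          replace hx : g₀⁻¹ * x * g₀ ∈ centralizer ({tinv B b} : Set G) := hx
          rw [← hCs', mem_centralizer_singleton_iff] at hx
          show x ∈ centralizer ({tinv B b} : Set G)
          rw [mem_centralizer_singleton_iff, ← hg₀]
          simpa [mul_assoc] using (conj_commute_iff g₀ _ _).2 hx
      refine le_trans ?_ (Set.ncard_le_ncard (s := {(⟨t₀, hDH htD⟩ : H), ⟨s, hDH hs⟩}) ?_ (Set.toFinite _))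
      · rw [Set.ncard_pair (fun e => hst (congrArg Subtype.val e).symm)]
      · rintro x (rfl | rfl)
        · exact ⟨1, by simp⟩
        · refine ⟨⟨g₀⁻¹, hg⟩, Subtype.ext ?_⟩
          show g₀⁻¹ * t₀ * g₀⁻¹⁻¹ = s
          rw [← hg₀]; group
    have hodd : ¬ 2 ∣ D'.index := by
      intro hd
      have h3 : 2 ∣ D.index := by
        rw [← Subgroup.relIndex_mul_index hDH]
        exact dvd_mul_of_dvd_left hd _
      have h4 : D.index = q * m := by
        have := h.index_mul D
        rw [h.card_cent] at this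
        exact Nat.eq_of_mul_eq_mul_right (show 0 < 2 * B by omega) (this.trans (by ring))
      rw [h4] at h3
      rcases Nat.prime_two.dvd_mul.1 h3 with e | e
      · exact h.hp2 (h.eq_p Nat.prime_two e).symm
      · exact h.not_two_dvd_m e
    omega
  haveI : D'.Normal := ⟨fun y hy x => mem_subgroupOf.2 ((mem_normalizer_iff.1 x.2 (y : G)).1 (mem_subgroupOf.1 hy))⟩
  have hpow3 : ∀ x ∈ H, x ^ 3 ∈ D := fun x hx => by
    have := D'.pow_index_mem (⟨x, hx⟩ : H)
    rw [hk3] at this
    exact mem_subgroupOf.1 this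
  have hconj : ∀ x ∈ H, ∀ y ∈ D, x * y * x⁻¹ ∈ D := fun x hx y hy => (mem_normalizer_iff.1 hx y).1 hy
  have h3B : ¬ 3 ∣ B := by
    intro h3
    set w := b ^ (B / 3) with hw
    have hwo : orderOf w = 3 := by
      have := orderOf_pow_orderOf_div (orderOf_pos b).ne' (show 3 ∣ orderOf b from h.hb ▸ h3)
      rwa [h.hb] at this
    have hwH : w ∈ zpowers b := Subgroup.npow_mem_zpowers b _
    have hw1 : w ≠ 1 := fun e => by simp [e] at hwo
    have hwD : w ∈ D := h.zpowers_le_cent hwH
    obtain ⟨x, hx⟩ : ∃ x : H, x ∉ D' := by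
      by_contra hcon
      push Not at hcon
      rw [(eq_top_iff' D').2 hcon, index_top] at hk3
      omega
    refine hx (mem_subgroupOf.2 ?_)
    set u := (x : G) * w * (x : G)⁻¹ with hu
    have huD : u ∈ D := hconj _ x.2 _ hwD
    have huo : orderOf u = 3 := by rw [hu, orderOf_conj', hwo]
    have huH : u ∈ zpowers b := h.mem_of_odd huD (by rw [huo]; decide)
    have huw : u = w ∨ u = w⁻¹ := by
      obtain ⟨i, hi⟩ := huH
      simp only at hi
      have hi3 : (B : ℤ) ∣ i * 3 := by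
        rw [← h.hb, orderOf_dvd_iff_zpow_eq_one, zpow_mul, hi, show (3 : ℤ) = ((3 : ℕ) : ℤ) from rfl, zpow_natCast,
          ← huo, pow_orderOf_eq_one]
      obtain ⟨c, hc⟩ := h3
      obtain ⟨d, hd⟩ : (c : ℤ) ∣ i := by
        obtain ⟨e, he⟩ := hi3
        refine ⟨e, ?_⟩
        have : (B : ℤ) = 3 * c := by exact_mod_cast hc
        rw [this] at he
        linarith
      have hu' : u = w ^ d := by
        rw [← hi, hd, zpow_mul, zpow_natCast, hw, hc, Nat.mul_div_cancel_left _ (by norm_num)]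
      have hw3 : w ^ (3 : ℤ) = 1 := by
        rw [show (3 : ℤ) = ((3 : ℕ) : ℤ) from rfl, zpow_natCast, ← hwo, pow_orderOf_eq_one]
      obtain ⟨e, he⟩ : ∃ e, d = 3 * e ∨ d = 3 * e + 1 ∨ d = 3 * e + -1 := ⟨(d + 1) / 3, by omega⟩
      rcases he with rfl | rfl | rfl
      · exfalso
        rw [zpow_mul, hw3, one_zpow] at hu'
        rw [hu', orderOf_one] at huo
        omega
      · exact Or.inl (by rw [hu', zpow_add, zpow_mul, hw3, one_zpow, one_mul, zpow_one])
      · exact Or.inr (by rw [hu', zpow_add, zpow_mul, hw3, one_zpow, one_mul, zpow_neg_one])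
    have hx2 : (x : G) * x ∈ centralizer ({w} : Set G) := by
      rw [mem_centralizer_singleton_iff]
      have : (x : G) * x * w * ((x : G) * x)⁻¹ = w := by
        rw [show (x : G) * x * w * ((x : G) * x)⁻¹ = (x : G) * u * (x : G)⁻¹ by rw [hu]; group]
        rcases huw with e | e
        · rw [e, ← hu, e]
        · rw [e, show (x : G) * w⁻¹ * (x : G)⁻¹ = u⁻¹ by rw [hu]; group, e, inv_inv]
      exact mul_inv_eq_iff_eq_mul.1 this
    rw [hD w hwD hw1] at hx2
    have := D.mul_mem (D.inv_mem hx2) (hpow3 x x.2)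
    rwa [show ((x : G) * x)⁻¹ * (x : G) ^ 3 = x by group] at this
  have hfree : ∀ g : G, g ∉ H → ∀ k ∈ D, g⁻¹ * k * g ∈ H → k = 1 := by
    intro g hg k hk hk'
    by_contra hk1
    apply hg
    have hd : orderOf k ∣ 2 * B := by
      have := orderOf_dvd_natCard (⟨k, hk⟩ : D)
      rwa [orderOf_mk, h.card_cent] at this
    have ho : orderOf (g⁻¹ * k * g) = orderOf k := by simpa using orderOf_conj' g⁻¹ k
    have hcop : Nat.Coprime 3 (orderOf (g⁻¹ * k * g)) := by
      rw [ho, Nat.Prime.coprime_iff_not_dvd Nat.prime_three]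
      intro e
      rcases Nat.prime_three.dvd_mul.1 (e.trans hd) with e | e
      · norm_num at e
      · exact h3B e
    have hkD : g⁻¹ * k * g ∈ D := by
      obtain ⟨j, hj⟩ := exists_pow_eq_self_of_coprime hcop
      exact hj ▸ D.pow_mem (hpow3 _ hk') j
    have hk'1 : g⁻¹ * k * g ≠ 1 := fun e => hk1 (by
      rw [show k = g * (g⁻¹ * k * g) * g⁻¹ by group, e, mul_one, mul_inv_cancel])
    have e1 := hD k hk hk1
    have e2 := hD _ hkD hk'1
    have hkeq : g * (g⁻¹ * k * g) * g⁻¹ = k := by group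
    rw [hH, mem_normalizer_iff]
    intro x
    constructor
    · intro hx
      rw [← e1, mem_centralizer_singleton_iff]
      rw [← e2, mem_centralizer_singleton_iff] at hx
      have := (conj_commute_iff g _ _).2 hx
      rwa [hkeq] at this
    · intro hx
      rw [← e2, mem_centralizer_singleton_iff]
      rw [← e1, mem_centralizer_singleton_iff] at hx
      refine (conj_commute_iff g _ _).1 ?_
      rwa [hkeq]
  obtain ⟨j, hj⟩ := card_dvd_index_sub_one D H hDH hfree
  rw [h.card_cent] at hj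
  have hidx : 3 * H.index = q * m := by
    have h1 := Subgroup.relIndex_mul_index hDH
    rw [show D.relIndex H = 3 from hk3] at h1
    have h2 := h.index_mul D
    rw [h.card_cent, ← h1] at h2
    exact Nat.eq_of_mul_eq_mul_right (show 0 < 2 * B by omega) (h2.trans (by ring))
  have hH0 : H.index ≠ 0 := Subgroup.index_ne_zero_of_finite
  have hqm : q * m = 3 + 3 * (2 * B * j) := by omega
  obtain ⟨u, hu⟩ := h.hBeven
  have hu2 : 2 ≤ u := by omega
  have hdiv : (2 * B : ℤ) ∣ (B : ℤ) - 2 := by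
    have hqm' : (q : ℤ) * m = 3 + 3 * (2 * B * j) := by exact_mod_cast hqm
    have hq' : (q : ℤ) = m + B := by exact_mod_cast h.hqmB
    have hu' : (B : ℤ) = 2 * u := by exact_mod_cast hu
    rcases h.hmB with e | e
    · have e' : (m : ℤ) = B + 1 := by exact_mod_cast e
      refine ⟨3 * j - B - 1, ?_⟩
      rw [hq', e'] at hqm'
      nlinarith
    · have e' : (B : ℤ) = m + 1 := by exact_mod_cast e
      refine ⟨3 * j - B + 2, ?_⟩
      rw [hq', show (m : ℤ) = B - 1 by linarith] at hqm'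
      nlinarith
  have := Int.le_of_dvd (by omega) hdiv
  omega

/-- The fixed points of an outer involution on the torus are trivial. -/
theorem fixed_trivial {s g₀ y : G} (hs : s ∈ C₀) (hs' : s ∉ zpowers b) (hss : s * s = 1)
    (hg₀ : g₀ * s * g₀⁻¹ = t₀) (hy : y ∈ zpowers b) (hys : s * y = y * s) : y = 1 ∨ y = t₀ := by
  have hB := h.hB2
  have ht2 : t₀ * t₀ = 1 := by rw [← pow_two, ← h.orderOf_tinv, pow_orderOf_eq_one]
  have hno4 : ∀ z ∈ zpowers b, s * z = z * s → z * z ≠ t₀ := by
    intro z hz hzs e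
    have hC : g₀ * z * g₀⁻¹ ∈ C₀ := by
      rw [mem_centralizer_singleton_iff, ← hg₀]
      exact (conj_commute_iff g₀ z s).2 hzs.symm
    have h2 := h.sq_mem hC
    rw [show g₀ * z * g₀⁻¹ * (g₀ * z * g₀⁻¹) = g₀ * (z * z) * g₀⁻¹ by group, e] at h2
    rcases h.eq_tinv h2 (by
      rw [show g₀ * t₀ * g₀⁻¹ * (g₀ * t₀ * g₀⁻¹) = g₀ * (t₀ * t₀) * g₀⁻¹ by group, ht2, mul_one,
        mul_inv_cancel]) with e' | e'
    · rw [mul_inv_eq_one, mul_eq_left] at e'
      exact h.tinv_ne_one e'
    · exact hs' ((mul_left_cancel (mul_right_cancel (e'.trans hg₀.symm))) ▸ h.tinv_mem)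
  by_cases hy2 : y * y = 1
  · exact h.eq_tinv hy hy2
  exfalso
  have hy1 : y ≠ 1 := fun e => hy2 (by rw [e, mul_one])
  -- an element of odd prime order fixed by `s`
  obtain ⟨r, hr, hr2, z, hz, hzs, hzo⟩ : ∃ r, r.Prime ∧ r ≠ 2 ∧ ∃ z ∈ zpowers b, s * z = z * s ∧ orderOf z = r := by
    by_contra hcon
    push Not at hcon
    have hpow : ∀ d, d.Prime → d ∣ orderOf y → d = 2 := by
      intro d hd hdy
      by_contra hd2
      exact hcon d hd hd2 _ ((zpowers b).pow_mem hy (orderOf y / d))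
        ((show Commute s y from hys).pow_right _).eq (orderOf_pow_orderOf_div (orderOf_pos y).ne' hdy)
    obtain ⟨k, hk⟩ : ∃ k, orderOf y = 2 ^ k :=
      ⟨_, Nat.eq_prime_pow_of_unique_prime_dvd (orderOf_pos y).ne' (fun {d} => hpow d)⟩
    obtain ⟨i, rfl⟩ : ∃ i, k = i + 2 := ⟨k - 2, by
      by_contra hlt
      apply hy2
      rw [← pow_two, ← orderOf_dvd_iff_pow_eq_one, hk]
      exact (pow_dvd_pow 2 (show k ≤ 1 by omega)).trans (by norm_num)⟩
    refine hno4 (y ^ 2 ^ i) ((zpowers b).pow_mem hy _) ((show Commute s y from hys).pow_right _).eq ?_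
    rw [← pow_add, ← two_mul, ← pow_succ']
    rcases h.eq_tinv ((zpowers b).pow_mem hy (2 ^ (i + 1))) (by
      rw [← pow_add, ← two_mul, ← pow_succ', ← hk, pow_orderOf_eq_one]) with e | e
    · exfalso
      rw [← orderOf_dvd_iff_pow_eq_one, hk] at e
      have := (Nat.pow_dvd_pow_iff_le_right one_lt_two).1 e
      omega
    · exact e
  have hz1 : z ≠ 1 := fun e => hr.ne_one (by rw [← hzo, e, orderOf_one])
  have hCz : centralizer ({z} : Set G) = C₀ := h.cent_eq_of_fixed hz hz1 hs hs' hzs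
  set z' := g₀ * z * g₀⁻¹ with hz'
  have hz'C : z' ∈ C₀ := by
    rw [mem_centralizer_singleton_iff, ← hg₀]
    exact (conj_commute_iff g₀ z s).2 hzs.symm
  have hz'o : orderOf z' = r := by rw [hz', orderOf_conj', hzo]
  have hz'H : z' ∈ zpowers b := h.mem_of_odd hz'C (hz'o.symm ▸ hr.odd_of_ne_two hr2)
  have huC : g₀ * t₀ * g₀⁻¹ ∈ C₀ := by
    rw [mem_centralizer_singleton_iff]
    have := (conj_commute_iff g₀ t₀ s).2 (mem_centralizer_singleton_iff.1 hs).symm
    rwa [hg₀] at this
  have huH : g₀ * t₀ * g₀⁻¹ ∉ zpowers b := by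
    intro hu
    rcases h.eq_tinv hu (by
      rw [show g₀ * t₀ * g₀⁻¹ * (g₀ * t₀ * g₀⁻¹) = g₀ * (t₀ * t₀) * g₀⁻¹ by group, ht2, mul_one,
        mul_inv_cancel]) with e | e
    · rw [mul_inv_eq_one, mul_eq_left] at e
      exact h.tinv_ne_one e
    · exact hs' ((mul_left_cancel (mul_right_cancel (e.trans hg₀.symm))) ▸ h.tinv_mem)
  have hCz' : centralizer ({z'} : Set G) = C₀ :=
    h.cent_eq_of_fixed hz'H (fun e => hr.ne_one (by rw [← hz'o, e, orderOf_one])) huC huH
      ((conj_commute_iff g₀ _ _).2 (h.commute_torus h.tinv_mem hz))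
  have hCs : centralizer ({s} : Set G) = C₀ := by
    ext x
    rw [← hCz, mem_centralizer_singleton_iff, mem_centralizer_singleton_iff]
    have e1 : x * s = s * x ↔ g₀ * x * g₀⁻¹ ∈ C₀ := by
      rw [mem_centralizer_singleton_iff, ← hg₀, conj_commute_iff]
    rw [e1, ← hCz', mem_centralizer_singleton_iff, hz', conj_commute_iff]
  have hsb : ∀ u ∈ zpowers b, s * u = u * s := fun u hu => by
    have := h.zpowers_le_cent hu
    rw [← hCs, mem_centralizer_singleton_iff] at this
    exact this.symm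
  have hab : ∀ u ∈ C₀, ∀ v ∈ C₀, u * v = v * u := by
    have key : ∀ u ∈ C₀, u ∈ zpowers b ∨ ∃ w ∈ zpowers b, u = s * w := fun u hu => by
      by_cases hu' : u ∈ zpowers b
      · exact Or.inl hu'
      · exact Or.inr ⟨s * u, (h.mul_mem_iff hs hu).2 (iff_of_false hs' hu'), by rw [← mul_assoc, hss, one_mul]⟩
    have hc : ∀ u ∈ C₀, Commute s u := fun u hu => by
      rcases key u hu with hu' | ⟨w, hw, rfl⟩
      · exact hsb u hu'
      · exact (Commute.refl s).mul_right (hsb w hw)
    intro u hu v hv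
    rcases key u hu with hu' | ⟨w, hw, rfl⟩
    · rcases key v hv with hv' | ⟨w', hw', rfl⟩
      · exact h.commute_torus hu' hv'
      · exact ((hc u hu).symm.mul_right (show Commute u w' from h.commute_torus hu' hw')).eq
    · rcases key v hv with hv' | ⟨w', hw', rfl⟩
      · exact ((hc v hv).mul_left (show Commute w v from h.commute_torus hw hv')).eq
      · exact ((hc _ hv).mul_left ((show Commute w s from (hsb w hw).symm).mul_right
          (show Commute w w' from h.commute_torus hw hw'))).eq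
  refine h.not_abelian_cent hs hs' hss hg₀ hab hCs ?_ ?_
  · intro e
    have hrB : r ∣ B := hzo ▸ h.orderOf_dvd_B hz
    rw [show B = 2 by have := h.hBeven; omega] at hrB
    exact hr2 ((Nat.prime_dvd_prime_iff_eq hr Nat.prime_two).1 hrB)
  · intro h4
    refine hno4 (b ^ (B / 4)) (Subgroup.npow_mem_zpowers b _) (hsb _ (Subgroup.npow_mem_zpowers b _)) ?_
    rw [← pow_add, tinv]
    congr 1
    omega

end Ctx

end Cfsg.Agent.SmallOrder.PSL2Spec
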