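import Mathlib.GroupTheory.Subgroup.Centralizer
import Mathlib.RingTheory.ZMod.UnitsCyclic
import Mathlib.GroupTheory.PGroup
import Cfsg.Agent.SmallOrder.PSL2Spec.Basic

/-!
# Cyclic centralisers and Frattini's argument
-/

set_option autoImplicit false
set_option linter.unusedSectionVars false

namespace Cfsg.Agent.SmallOrder.PSL2Spec

open Subgroup

variable {G : Type*} [Group G] [Finite G]

/-- If the `r`-part of `|G|` divides the order of `a`, then every element of order `r` is conjugate to a power of `a`. -/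
theorem exists_conj_mem_zpowers {r : ℕ} [Fact r.Prime] (a : G)
    (hfac : r ^ (Nat.card G).factorization r ∣ orderOf a) {z : G} (hz : ∃ k, orderOf z = r ^ k) :
    ∃ g : G, g * z * g⁻¹ ∈ zpowers a := by
  let c := a ^ (orderOf a / r ^ (Nat.card G).factorization r)
  have hc : orderOf c = r ^ (Nat.card G).factorization r := orderOf_pow_orderOf_div (orderOf_pos a).ne' hfac
  let P : Sylow r G := Sylow.ofCard (zpowers c) (by rw [Nat.card_zpowers, hc])
  have hzp : IsPGroup r (zpowers z) := by
    obtain ⟨k, hk⟩ := hz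
    exact IsPGroup.of_card (n := k) (by rw [Nat.card_zpowers, hk])
  obtain ⟨Q, hQ⟩ := hzp.exists_le_sylow
  obtain ⟨g, hg⟩ := MulAction.exists_smul_eq G Q P
  refine ⟨g, ?_⟩
  have hmem : g * z * g⁻¹ ∈ (P : Subgroup G) := by
    rw [← hg, Sylow.coe_subgroup_smul]
    exact ⟨z, hQ (mem_zpowers z), rfl⟩
  have hle : zpowers c ≤ zpowers a := zpowers_le.2 (Subgroup.npow_mem_zpowers a _)
  exact hle hmem

/-- Frattini's argument, counted. -/
theorem card_frattini {r : ℕ} [Fact r.Prime] (N : Subgroup G) [N.Normal] (R : Sylow r N) :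
    Nat.card G * Nat.card (N ⊓ normalizer (((R : Subgroup N).map N.subtype : Subgroup G) : Set G) : Subgroup G)
      = Nat.card N * Nat.card (normalizer (((R : Subgroup N).map N.subtype : Subgroup G) : Set G)) := by
  have hfr := Sylow.normalizer_sup_eq_top R
  set H := normalizer (((R : Subgroup N).map N.subtype : Subgroup G) : Set G) with hH
  have h1 : N.index = N.relIndex H := by
    rw [← relIndex_top_right, ← hfr, relIndex_sup_right]
  have h2 : Nat.card (N.subgroupOf H) * N.relIndex H = Nat.card H := card_mul_index _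
  have h3 : Nat.card (N.subgroupOf H) = Nat.card (N ⊓ H : Subgroup G) := by
    rw [← inf_subgroupOf_right N H]
    exact Nat.card_congr (subgroupOfEquivOfLe inf_le_right).toEquiv
  rw [← Subgroup.card_mul_index N, h1, ← h2, h3]
  ring

theorem isPGroup_prime_pow_dvd {r : ℕ} [Fact r.Prime] {x : G} {H : Subgroup G} (hH : IsPGroup r H) (hx : x ∈ H) :
    ∃ k, orderOf x = r ^ k := by
  obtain ⟨k, hk⟩ := hH ⟨x, hx⟩
  obtain ⟨i, -, hi⟩ := (Nat.dvd_prime_pow (Fact.out : r.Prime)).1
    (orderOf_dvd_of_pow_eq_one (congrArg Subtype.val hk : x ^ r ^ k = 1))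
  exact ⟨i, hi⟩

namespace Ctx

variable {p n q m B : ℕ} {a b : G} (h : Ctx G p n q m B a b)
include h

theorem fac_m {s : ℕ} (hs : s.Prime) (hsm : s ∣ m) : s ^ (Nat.card G).factorization s ∣ orderOf a := by
  haveI : Fact s.Prime := ⟨hs⟩
  rw [h.ha]
  refine (((Nat.Prime.coprime_iff_not_dvd hs).2 (fun hd => ?_)).pow_left _).dvd_of_dvd_mul_left
    (by rw [show 2 * q * B * m = 2 * q * m * B by ring, ← h.hcard]; exact Nat.ordProj_dvd _ _)
  rcases hs.dvd_mul.1 hd with e | e
  · rcases hs.dvd_mul.1 e with e | e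
    · exact h.not_two_dvd_m ((Nat.prime_dvd_prime_iff_eq hs Nat.prime_two).1 e ▸ hsm)
    · exact h.not_p_dvd_m (h.eq_p hs e ▸ hsm)
  · exact h.not_both hs hsm e

theorem fac_B {s : ℕ} (hs : s.Prime) (hs2 : s ≠ 2) (hsB : s ∣ B) : s ^ (Nat.card G).factorization s ∣ orderOf b := by
  haveI : Fact s.Prime := ⟨hs⟩
  rw [h.hb]
  refine (((Nat.Prime.coprime_iff_not_dvd hs).2 (fun hd => ?_)).pow_left _).dvd_of_dvd_mul_left
    (by rw [← h.hcard]; exact Nat.ordProj_dvd _ _)
  rcases hs.dvd_mul.1 hd with e | e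
  · rcases hs.dvd_mul.1 e with e | e
    · exact hs2 ((Nat.prime_dvd_prime_iff_eq hs Nat.prime_two).1 e)
    · exact h.not_p_dvd_B (h.eq_p hs e ▸ hsB)
  · exact h.not_both hs e hsB

/-- Centralisers of elements of type `m` are cyclic. -/
theorem isCyclic_cent_m {z : G} {s : ℕ} (hs : s.Prime) (hsm : s ∣ m) (hz : orderOf z = s) :
    IsCyclic (centralizer ({z} : Set G)) := by
  haveI : Fact s.Prime := ⟨hs⟩
  obtain ⟨g, hg⟩ := exists_conj_mem_zpowers a (h.fac_m hs hsm) (z := z) ⟨1, by rw [hz, pow_one]⟩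
  set w := g * z * g⁻¹ with hw
  have hwo : orderOf w = s := by
    have := orderOf_injective (MulAut.conj g).toMonoidHom (MulEquiv.injective _) z
    simpa [hw, hz] using this
  have hw1 : w ≠ 1 := fun e => hs.ne_one (by rw [← hwo, e, orderOf_one])
  have hle : zpowers a ≤ centralizer ({w} : Set G) := fun x hx => mem_centralizer_singleton_iff.2
    (by
      obtain ⟨i, hi⟩ := hg
      obtain ⟨j, rfl⟩ := hx
      rw [← hi]
      exact (Commute.zpow_zpow (Commute.refl a) j i).eq)
  have heq : zpowers a = centralizer ({w} : Set G) := Subgroup.eq_of_le_of_card_ge hle (by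
    rw [Nat.card_zpowers, h.ha]
    exact Nat.le_of_dvd (by have := h.hm; omega) (h.cent_m hw1 (by rw [hwo]; exact hsm)))
  let f : centralizer ({z} : Set G) →* zpowers a :=
    ((MulAut.conj g).toMonoidHom.comp (centralizer ({z} : Set G)).subtype).codRestrict _ (fun x => by
      rw [heq, mem_centralizer_singleton_iff]
      have := mem_centralizer_singleton_iff.1 x.2
      show g * x * g⁻¹ * (g * z * g⁻¹) = g * z * g⁻¹ * (g * x * g⁻¹)
      calc g * x * g⁻¹ * (g * z * g⁻¹) = g * ((x : G) * z) * g⁻¹ := by group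
        _ = g * (z * x) * g⁻¹ := by rw [this]
        _ = _ := by group)
  exact isCyclic_of_injective f (fun x y hxy => Subtype.ext
    ((MulAut.conj g).injective (congrArg Subtype.val hxy)))

/-- A subgroup normalising an `s`-subgroup, `s ∣ m`, of order coprime to `m` is cyclic. -/
theorem cyclic_of_normalizes {s : ℕ} (hs : s.Prime) (hsm : s ∣ m) (R : Subgroup G) (hR : IsPGroup s R)
    (hRne : R ≠ ⊥) (S : Subgroup G) (hS : S ≤ normalizer (R : Set G)) (hcop : (Nat.card S).Coprime m) :
    IsCyclic S ∧ Nat.card S ∣ Nat.totient (Nat.card R) := by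
  haveI : Fact s.Prime := ⟨hs⟩
  haveI : Nontrivial R := (nontrivial_iff_ne_bot R).2 hRne
  haveI := hR.center_nontrivial
  obtain ⟨zc, hzc⟩ := exists_ne (1 : Subgroup.center R)
  obtain ⟨j, hj⟩ := isPGroup_prime_pow_dvd hR (zc.1).2
  have hzne : ((zc : R) : G) ≠ 1 := fun e => hzc (Subtype.ext (Subtype.ext e))
  have hj0 : j ≠ 0 := by rintro rfl; exact hzne (orderOf_eq_one_iff.1 (by simpa using hj))
  set z := ((zc : R) : G) ^ (orderOf ((zc : R) : G) / s) with hz
  have hzs : orderOf z = s := orderOf_pow_orderOf_div (orderOf_pos _).ne' (hj ▸ dvd_pow_self s hj0)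
  have hz1 : z ≠ 1 := fun e => hs.ne_one (by rw [← hzs, e, orderOf_one])
  have hzR : z ∈ R := R.pow_mem (zc.1).2 _
  have hRC : R ≤ centralizer ({z} : Set G) := fun x hx => mem_centralizer_singleton_iff.2 (by
    have h1 : Commute x ((zc : R) : G) := congrArg Subtype.val (mem_center_iff.1 zc.2 ⟨x, hx⟩)
    exact (h1.pow_right _).eq)
  haveI := h.isCyclic_cent_m hs hsm hzs
  haveI : IsCyclic R := isCyclic_of_injective (Subgroup.inclusion hRC) (Subgroup.inclusion_injective hRC)
  let f : S →* (ZMod (Nat.card R))ˣ :=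
    ((IsCyclic.mulAutMulEquiv R).toMonoidHom.comp R.normalizerMonoidHom).comp (Subgroup.inclusion hS)
  have hf : Function.Injective f := by
    rw [injective_iff_map_eq_one]
    intro x hx
    have hx' : Subgroup.inclusion hS x ∈ R.normalizerMonoidHom.ker :=
      MonoidHom.mem_ker.2 ((IsCyclic.mulAutMulEquiv R).injective (hx.trans (map_one _).symm))
    rw [normalizerMonoidHom_ker, mem_subgroupOf, mem_centralizer_iff] at hx'
    have hxC : (x : G) ∈ centralizer ({z} : Set G) := mem_centralizer_singleton_iff.2 (hx' z hzR).symm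
    have h1 : orderOf (x : G) ∣ m := by
      have := orderOf_dvd_natCard (⟨(x : G), hxC⟩ : centralizer ({z} : Set G))
      rw [orderOf_mk] at this
      exact this.trans (h.cent_m hz1 (hzs ▸ hsm))
    have h2 : orderOf (x : G) ∣ Nat.card S := by rw [orderOf_coe]; exact orderOf_dvd_natCard _
    exact Subtype.ext (orderOf_eq_one_iff.1 (Nat.dvd_one.1 (hcop ▸ Nat.dvd_gcd h2 h1)))
  obtain ⟨k, hk⟩ := IsPGroup.iff_card.1 hR
  haveI : IsCyclic (ZMod (Nat.card R))ˣ := by
    rw [hk]
    exact ZMod.isCyclic_units_of_prime_pow s hs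
      (fun e => h.not_two_dvd_m (e ▸ hsm)) k
  refine ⟨isCyclic_of_injective f hf, ?_⟩
  haveI : NeZero (Nat.card R) := ⟨Nat.card_pos.ne'⟩
  have := Subgroup.card_dvd_of_injective f hf
  rwa [Nat.card_eq_fintype_card (α := (ZMod (Nat.card R))ˣ), ZMod.card_units_eq_totient] at this

/-- A `p`-subgroup normalising an `s`-subgroup, `s ∣ m`, has order at most `p`. -/
theorem p_le_of_normalizes {s : ℕ} (hs : s.Prime) (hsm : s ∣ m) (R : Subgroup G) (hR : IsPGroup s R)
    (hRne : R ≠ ⊥) (S : Subgroup G) (hS : S ≤ normalizer (R : Set G)) (hSp : IsPGroup p S) :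
    Nat.card S ∣ p := by
  haveI : Fact p.Prime := ⟨h.hp⟩
  obtain ⟨k, hk⟩ := IsPGroup.iff_card.1 hSp
  obtain ⟨hcyc, -⟩ := h.cyclic_of_normalizes hs hsm R hR hRne S hS
    (by rw [hk]; exact ((Nat.Prime.coprime_iff_not_dvd h.hp).2 h.not_p_dvd_m).pow_left k)
  haveI := hcyc
  obtain ⟨x, hx⟩ := IsCyclic.exists_ofOrder_eq_natCard (α := S)
  rw [← hx, ← orderOf_coe]
  rcases h.hspec (x : G) with e | e | e
  · exact e
  all_goals
    rw [orderOf_coe, hx, hk] at e
    rcases Nat.eq_zero_or_pos k with rfl | hk0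
    · rw [orderOf_coe, hx, hk, pow_zero]; exact one_dvd _
    · first
        | exact absurd ((dvd_pow_self p hk0.ne').trans e) h.not_p_dvd_m
        | exact absurd ((dvd_pow_self p hk0.ne').trans e) h.not_p_dvd_B

/-- A non-trivial normal subgroup has even order. -/
theorem even_normal (N : Subgroup G) [N.Normal] (hne : N ≠ ⊥) : 2 ∣ Nat.card N := by
  haveI : Fact (Nat.Prime 2) := ⟨Nat.prime_two⟩
  by_contra hodd
  obtain ⟨-, ⟨s, hs, hsm, hsN⟩, -⟩ := h.three_types N hne
  haveI : Fact s.Prime := ⟨hs⟩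
  obtain ⟨R⟩ := (inferInstance : Nonempty (Sylow s N))
  have hcard := card_frattini N R
  set R' := (R : Subgroup N).map N.subtype with hR'
  set H := normalizer (R' : Set G) with hH
  have hR'p : IsPGroup s R' := R.2.map _
  have hR'ne : R' ≠ ⊥ := by
    rw [hR', Ne, Subgroup.map_eq_bot_iff_of_injective _ N.subtype_injective]
    exact R.ne_bot_of_dvd_card hsN
  obtain ⟨T⟩ := (inferInstance : Nonempty (Sylow 2 H))
  set T' := (T : Subgroup H).map H.subtype with hT'
  have hT'c : Nat.card T' = 2 ^ (Nat.card H).factorization 2 := by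
    rw [hT', Subgroup.card_map_of_injective H.subtype_injective]; exact T.card_eq_multiplicity
  obtain ⟨hcyc, -⟩ := h.cyclic_of_normalizes hs hsm R' hR'p hR'ne T' (map_subtype_le _)
    (by rw [hT'c]; exact ((Nat.Prime.coprime_iff_not_dvd Nat.prime_two).2 h.not_two_dvd_m).pow_left _)
  haveI := hcyc
  obtain ⟨x, hx⟩ := IsCyclic.exists_ofOrder_eq_natCard (α := T')
  have hxc : orderOf (x : G) = 2 ^ (Nat.card G).factorization 2 := by
    rw [orderOf_coe, hx, hT'c]
    congr 1
    have hN0 : ¬ 2 ∣ Nat.card (N ⊓ H : Subgroup G) := fun hd =>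
      hodd (hd.trans (Subgroup.card_dvd_of_le inf_le_left))
    have := congrArg (fun i => i.factorization 2) hcard
    rw [Nat.factorization_mul Nat.card_pos.ne' Nat.card_pos.ne',
      Nat.factorization_mul Nat.card_pos.ne' Nat.card_pos.ne'] at this
    simp only [Finsupp.add_apply, Nat.factorization_eq_zero_of_not_dvd hodd,
      Nat.factorization_eq_zero_of_not_dvd hN0, add_zero, zero_add] at this
    exact this.symm
  have hfac : (Nat.card G).factorization 2 = B.factorization 2 + 1 := by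
    have hB0 : B ≠ 0 := by have := h.hB2; omega
    have hqm : ¬ 2 ∣ q * m := fun hd => by
      rcases Nat.prime_two.dvd_mul.1 hd with e | e
      · exact h.hp2 (h.eq_p Nat.prime_two e).symm
      · exact h.not_two_dvd_m e
    have hqm0 : q * m ≠ 0 := fun e => hqm (by rw [e]; exact dvd_zero 2)
    rw [h.hcard, show 2 * q * m * B = 2 * (q * m * B) by ring,
      Nat.factorization_mul two_ne_zero (mul_ne_zero hqm0 hB0),
      Nat.factorization_mul hqm0 hB0]
    simp [Nat.factorization_eq_zero_of_not_dvd hqm, Nat.prime_two.factorization_self, add_comm]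
  rw [hfac] at hxc
  have h2 : 2 ∣ orderOf (x : G) := hxc ▸ dvd_pow_self 2 (by omega)
  rcases h.hspec (x : G) with e | e | e
  · exact h.hp2 ((Nat.prime_dvd_prime_iff_eq Nat.prime_two h.hp).1 (h2.trans e)).symm
  · exact h.not_two_dvd_m (h2.trans e)
  · rw [hxc] at e
    exact Nat.pow_succ_factorization_not_dvd (by have := h.hB2; omega) Nat.prime_two e

end Ctx

end Cfsg.Agent.SmallOrder.PSL2Spec
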