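import Mathlib.GroupTheory.Transfer
import Mathlib.GroupTheory.Sylow
import Mathlib.Tactic

/-!
# Transfer into a quotient of order two of a Sylow 2-subgroup
-/

set_option autoImplicit false

namespace Cfsg.Agent.SmallOrder.PSL2Spec

open Subgroup MulAction

variable {G : Type*} [Group G] [Finite G]

/-- If `G` has no subgroup of index two and `M` has index two in the Sylow 2-subgroup `T`, then an element of minimal order
in `T \ M` is conjugate into `M`. -/
theorem exists_conj_mem_of_minimal (T : Sylow 2 G) (hno : ∀ N : Subgroup G, N.Normal → N.index ≠ 2)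
    (M : Subgroup G) (hM : M.relIndex (T : Subgroup G) = 2) {g : G}
    (hgT : g ∈ (T : Subgroup G)) (_hgM : g ∉ M)
    (hmin : ∀ x ∈ (T : Subgroup G), x ∉ M → orderOf g ≤ orderOf x) :
    ∃ h : G, h * g * h⁻¹ ∈ M := by
  classical
  by_contra hcon
  push Not at hcon
  let M' : Subgroup (T : Subgroup G) := M.subgroupOf T
  have hM' : M'.index = 2 := hM
  have hmul : ∀ x y : (T : Subgroup G), x * y ∈ M' ↔ (x ∈ M' ↔ y ∈ M') :=
    fun x y => Subgroup.mul_mem_iff_of_index_two hM'
  let φ : (T : Subgroup G) →* ℤˣ :=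
    { toFun := fun x => if x ∈ M' then 1 else -1
      map_one' := by simp
      map_mul' := fun x y => by
        by_cases hx : x ∈ M' <;> by_cases hy : y ∈ M' <;> simp [hmul, hx, hy] }
  haveI : Fintype (Quotient (orbitRel (zpowers g) (G ⧸ (T : Subgroup G)))) := Fintype.ofFinite _
  have hg2 : ∃ k, orderOf g = 2 ^ k := by
    obtain ⟨k, hk⟩ := T.2 ⟨g, hgT⟩
    obtain ⟨i, -, hi⟩ := (Nat.dvd_prime_pow Nat.prime_two).1
      (orderOf_dvd_of_pow_eq_one (congrArg Subtype.val hk : g ^ 2 ^ k = 1))
    exact ⟨i, hi⟩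
  obtain ⟨k, hk⟩ := hg2
  have hval : ∀ q : Quotient (orbitRel (zpowers g) (G ⧸ (T : Subgroup G))),
      φ ⟨q.out.out⁻¹ * g ^ Function.minimalPeriod (g • ·) q.out * q.out.out,
        QuotientGroup.out_conj_pow_minimalPeriod_mem (T : Subgroup G) g q.out⟩
        = (-1 : ℤˣ) ^ Function.minimalPeriod (g • ·) q.out := by
    intro q
    generalize hqd : q.out = x
    have hmem := QuotientGroup.out_conj_pow_minimalPeriod_mem (T : Subgroup G) g x
    have hper : Function.minimalPeriod (g • ·) x ∣ orderOf g := by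
      refine Function.IsPeriodicPt.minimalPeriod_dvd ?_
      show (g • ·)^[orderOf g] x = x
      rw [smul_iterate, pow_orderOf_eq_one]; exact one_smul G x
    rw [hk] at hper
    obtain ⟨i, hik, hi⟩ := (Nat.dvd_prime_pow Nat.prime_two).1 hper
    rcases Nat.eq_zero_or_pos i with rfl | hipos
    · simp only [hi, pow_zero, pow_one] at hmem ⊢
      refine if_neg (fun hin => hcon x.out⁻¹ ?_)
      have : x.out⁻¹ * g * x.out ∈ M := hin
      simpa using this
    · simp only [hi] at hmem ⊢
      obtain ⟨j, rfl⟩ : ∃ j, i = j + 1 := ⟨i - 1, by omega⟩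
      rw [show (-1 : ℤˣ) ^ 2 ^ (j + 1) = 1 by rw [pow_succ', pow_mul]; simp]
      refine if_pos ?_
      by_contra hout
      have h1 := hmin _ hmem hout
      have h2 : orderOf (x.out⁻¹ * g ^ 2 ^ (j + 1) * x.out) = orderOf (g ^ 2 ^ (j + 1)) := by
        have := orderOf_injective (MulAut.conj x.out⁻¹).toMonoidHom (MulEquiv.injective _) (g ^ 2 ^ (j + 1))
        simpa using this
      rw [h2, orderOf_pow' g (by positivity), hk, Nat.gcd_eq_right (Nat.pow_dvd_pow 2 hik)] at h1
      have h4 : 1 < 2 ^ (j + 1) := Nat.one_lt_two_pow (by omega)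
      exact absurd h1 (not_le.2 (Nat.div_lt_self (by positivity) h4))
  have hsum : ∑ q : Quotient (orbitRel (zpowers g) (G ⧸ (T : Subgroup G))),
      Function.minimalPeriod (g • ·) q.out = (T : Subgroup G).index := by
    rw [Subgroup.index_eq_card, Nat.card_congr (quotientEquivSigmaZMod (T : Subgroup G) g), Nat.card_sigma]
    exact Finset.sum_congr rfl fun q _ => (Nat.card_zmod _).symm
  have hV : MonoidHom.transfer φ g = -1 := by
    rw [MonoidHom.transfer_eq_prod_quotient_orbitRel_zpowers_quot φ g, Finset.prod_congr rfl (fun q _ => hval q),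
      Finset.prod_pow_eq_pow_sum, hsum]
    exact (Nat.odd_iff.mpr (Nat.two_dvd_ne_zero.mp T.not_dvd_index)).neg_one_pow
  refine hno (MonoidHom.transfer φ).ker inferInstance ?_
  rw [Subgroup.index_ker]
  have htop : (MonoidHom.transfer φ).range = ⊤ := by
    rw [eq_top_iff]
    intro x _
    rcases Int.units_eq_one_or x with rfl | rfl
    · exact one_mem _
    · exact ⟨g, hV⟩
  rw [htop, Subgroup.card_top, Nat.card_eq_fintype_card, Fintype.card_units_int]

end Cfsg.Agent.SmallOrder.PSL2Spec
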