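import Cfsg.Agent.SmallOrder.PSL2Spec.Cent
import Cfsg.Agent.SmallOrder.PSL2Spec.Transfer
import Cfsg.Agent.PermGroups.CubicSuborbit.Shapes
import Cfsg.Agent.Core.Cores
import Cfsg.Agent.S0508

/-!
# The simple minimal normal subgroup has dihedral Sylow 2-subgroups and is a `PSL₂`
-/

set_option autoImplicit false
set_option linter.unusedSectionVars false

namespace Cfsg.Agent.SmallOrder.PSL2Spec

open Subgroup

universe u
variable {G : Type u} [Group G] [Finite G]

namespace Ctx

variable {p n q m B : ℕ} {a b : G} (h : Ctx G p n q m B a b)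
include h

local notation "t₀" => tinv B b
local notation "C₀" => centralizer ({tinv B b} : Set G)

theorem tinv_sq : t₀ * t₀ = 1 := by rw [← pow_two, ← h.orderOf_tinv, pow_orderOf_eq_one]

theorem conj_false {g c : G} (hg : g ∈ C₀) (hg' : g ∉ zpowers b) {k : ℕ} (hk : g ^ k = t₀)
    (hc : c * g * c⁻¹ ∈ zpowers b) : False := by
  have h1 : c * t₀ * c⁻¹ ∈ zpowers b := by rw [← hk, ← conj_pow]; exact Subgroup.pow_mem _ hc _
  rcases h.eq_tinv h1 (by
    rw [show c * t₀ * c⁻¹ * (c * t₀ * c⁻¹) = c * (t₀ * t₀) * c⁻¹ by group, h.tinv_sq, mul_one, mul_inv_cancel]) with e | e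
  · rw [mul_inv_eq_one, mul_eq_left] at e
    exact h.tinv_ne_one e
  · have hcC : c ∈ C₀ := mem_centralizer_singleton_iff.2 (mul_inv_eq_iff_eq_mul.1 e)
    have := h.conj_mem (inv_mem hcC) hc
    rw [show c⁻¹ * (c * g * c⁻¹) * c⁻¹⁻¹ = g by group] at this
    exact hg' this

theorem exists_psl (N : Subgroup G) [N.Normal] [IsSimpleGroup N] (hne : N ≠ ⊥) :
    ∃ (F : Type) (_ : Field F) (_ : Fintype F), Odd (Fintype.card F) ∧
      Nonempty (N ≃* Matrix.ProjectiveSpecialLinearGroup (Fin 2) F) := by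
  classical
  haveI : Fact (Nat.Prime 2) := ⟨Nat.prime_two⟩
  have h2N := h.even_normal N hne
  have hpN := (h.three_types N hne).1
  have hno : ∀ K : Subgroup N, K.Normal → K.index ≠ 2 := by
    intro K hK hi
    rcases hK.eq_bot_or_eq_top with rfl | rfl
    · rw [index_bot] at hi
      rw [hi] at hpN
      exact h.hp2 ((Nat.prime_dvd_prime_iff_eq h.hp Nat.prime_two).1 hpN)
    · rw [index_top] at hi
      omega
  obtain ⟨T, htT, hTC⟩ := h.exists_sylow
  -- a Sylow 2-subgroup of `N` inside `T`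
  obtain ⟨S, hST⟩ : ∃ S : Sylow 2 N, ∀ x : N, x ∈ (S : Subgroup N) ↔ (x : G) ∈ (T : Subgroup G) := by
    have hP0 : IsPGroup 2 ((T : Subgroup G).subgroupOf N) := T.2.comap_of_injective _ N.subtype_injective
    obtain ⟨Q, hQ⟩ := hP0.exists_le_sylow
    obtain ⟨T2, hT2⟩ := (Q.2.map N.subtype).exists_le_sylow
    obtain ⟨g, hg⟩ := MulAction.exists_smul_eq G T2 T
    let f : ↥(Q : Subgroup N) → (T : Subgroup G).subgroupOf N := fun x =>
      ⟨MulAut.conjNormal g x.1, mem_subgroupOf.2 (by
        rw [MulAut.conjNormal_apply, ← hg, Sylow.coe_subgroup_smul]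
        exact ⟨_, hT2 (mem_map_of_mem _ x.2), rfl⟩)⟩
    have hf : Function.Injective f := fun x y e =>
      Subtype.ext ((MulAut.conjNormal g).injective (congrArg Subtype.val e))
    exact ⟨Q, fun x => by
      rw [← Subgroup.eq_of_le_of_card_ge hQ (Nat.card_le_card_of_injective f hf), mem_subgroupOf]⟩
  have hSC : ∀ x ∈ (S : Subgroup N), (x : G) ∈ C₀ := fun x hx => hTC ((hST x).1 hx)
  have hncyc : ¬ IsCyclic (S : Subgroup N) := by
    intro hcyc
    have hmin : (Nat.card N).minFac = 2 := (Nat.minFac_eq_two_iff _).2 h2N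
    have hc := IsCyclic.isComplement' hmin hcyc
    rcases (MonoidHom.normal_ker (MonoidHom.transferSylow S (hcyc.normalizer_le_centralizer hmin))).eq_bot_or_eq_top
      with e | e
    · have h1 := hc.card_mul
      rw [e, card_bot, one_mul] at h1
      obtain ⟨k, hk⟩ := IsPGroup.iff_card.1 S.2
      rw [← h1, hk] at hpN
      exact h.hp2 ((Nat.prime_dvd_prime_iff_eq h.hp Nat.prime_two).1 (h.hp.dvd_of_dvd_pow hpN))
    · have h1 := hc.card_mul
      rw [e, card_top] at h1
      exact S.ne_bot_of_dvd_card h2N ((Subgroup.card_eq_one).1 (mul_eq_left₀ Nat.card_pos.ne' |>.1 h1))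
  set M : Subgroup N := (zpowers b).subgroupOf N ⊓ S with hM
  have hMle : M ≤ S := inf_le_right
  have hMb : ∀ x ∈ M, (x : G) ∈ zpowers b := fun x hx => mem_subgroupOf.1 hx.1
  have hMmem : ∀ x : N, (x : G) ∈ zpowers b → x ∈ (S : Subgroup N) → x ∈ M := fun x h1 h2 =>
    ⟨mem_subgroupOf.2 h1, h2⟩
  haveI hMcyc : IsCyclic M :=
    isCyclic_of_injective ((N.subtype.comp M.subtype).codRestrict (zpowers b) (fun x => hMb _ x.2))
      (fun x y e => Subtype.ext (Subtype.ext (congrArg (Subtype.val : zpowers b → G) e)))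
  obtain ⟨x₀, hx₀S, hx₀⟩ : ∃ x ∈ (S : Subgroup N), x ∉ M := by
    by_contra hcon
    push Not at hcon
    exact hncyc (isCyclic_of_injective (Subgroup.inclusion (show (S : Subgroup N) ≤ M from hcon))
      (Subgroup.inclusion_injective _))
  have hx₀b : (x₀ : G) ∉ zpowers b := fun e => hx₀ (hMmem _ e hx₀S)
  have hMrel : M.relIndex (S : Subgroup N) = 2 := by
    rw [relIndex, index_eq_two_iff]
    refine ⟨⟨x₀, hx₀S⟩, fun y => ?_⟩
    have e := h.mul_mem_iff (hSC _ y.2) (hSC _ hx₀S)
    by_cases hy : ((y : N) : G) ∈ zpowers b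
    · exact Or.inr ⟨mem_subgroupOf.2 (hMmem _ hy y.2), fun e' => hx₀b ((e.1 (hMb _ (mem_subgroupOf.1 e'))).1 hy)⟩
    · exact Or.inl ⟨mem_subgroupOf.2 (hMmem _ (e.2 (iff_of_false hy hx₀b)) (mul_mem y.2 hx₀S)),
        fun e' => hy (hMb _ (mem_subgroupOf.1 e'))⟩
  have hSn : Nat.card (S : Subgroup N) = 2 * Nat.card M := by
    have h1 := (M.subgroupOf (S : Subgroup N)).card_mul_index
    rw [Nat.card_congr (subgroupOfEquivOfLe hMle).toEquiv] at h1
    rw [← h1, show (M.subgroupOf (S : Subgroup N)).index = 2 from hMrel, mul_comm]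
  have hpow2 : ∀ x ∈ (S : Subgroup N), ∃ k, orderOf x = 2 ^ k := fun x hx => isPGroup_prime_pow_dvd S.2 hx
  obtain ⟨htN, htS⟩ : ∃ htN : t₀ ∈ N, (⟨t₀, htN⟩ : N) ∈ (S : Subgroup N) := by
    obtain ⟨y, hy, hy1⟩ : ∃ y ∈ M, y ≠ 1 := by
      by_contra hcon
      push Not at hcon
      rw [(Subgroup.eq_bot_iff_forall M).2 hcon, card_bot] at hSn
      exact hncyc (isCyclic_of_prime_card (p := 2) (by simpa using hSn))
    obtain ⟨k, hk⟩ := hpow2 y (hMle hy)
    obtain ⟨i, rfl⟩ : ∃ i, k = i + 1 := ⟨k - 1, by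
      have : k ≠ 0 := fun e => hy1 (orderOf_eq_one_iff.1 (by rw [hk, e, pow_zero]))
      omega⟩
    have hyo : orderOf (y ^ 2 ^ i) = 2 := by
      rw [orderOf_pow' y (by positivity), hk, Nat.gcd_eq_right (Nat.pow_dvd_pow 2 (by omega)),
        pow_succ', Nat.mul_div_cancel _ (by positivity)]
    rcases h.eq_tinv (hMb _ (M.pow_mem hy (2 ^ i))) (by
      rw [← pow_two]
      have h1 := pow_orderOf_eq_one ((y ^ 2 ^ i : N) : G)
      rwa [orderOf_coe, hyo] at h1) with e | e
    · rw [← orderOf_coe, e, orderOf_one] at hyo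
      omega
    · exact ⟨e ▸ (y ^ 2 ^ i).2, (Subtype.ext e : y ^ 2 ^ i = (⟨t₀, e ▸ (y ^ 2 ^ i).2⟩ : N)) ▸ hMle (M.pow_mem hy _)⟩
  -- an outer involution
  obtain ⟨s, hsS, hsM, hss, g₀, hg₀⟩ : ∃ s ∈ (S : Subgroup N), s ∉ M ∧ (s : G) * s = 1 ∧
      ∃ g₀ : G, g₀ * (s : G) * g₀⁻¹ = t₀ := by
    obtain ⟨g, ⟨hgS, hgM⟩, hmin⟩ := Set.exists_min_image {x : N | x ∈ (S : Subgroup N) ∧ x ∉ M}
      (fun x => orderOf x) (Set.toFinite _) ⟨x₀, hx₀S, hx₀⟩
    obtain ⟨c, hc⟩ := exists_conj_mem_of_minimal S hno M hMrel hgS hgM (fun x h1 h2 => hmin x ⟨h1, h2⟩)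
    have hgb : (g : G) ∉ zpowers b := fun e => hgM (hMmem _ e hgS)
    obtain ⟨k, hk⟩ := hpow2 g hgS
    have hgo : orderOf (g : G) = 2 ^ k := by rw [orderOf_coe, hk]
    have hk1 : k ≤ 1 := by
      by_contra hk1
      obtain ⟨i, rfl⟩ : ∃ i, k = i + 2 := ⟨k - 2, by omega⟩
      rcases h.eq_tinv (show (g : G) ^ 2 ^ (i + 1) ∈ zpowers b by
        rw [pow_succ', pow_mul, pow_two]; exact Subgroup.pow_mem _ (h.sq_mem (hSC _ hgS)) _) (by
        rw [← pow_add, ← two_mul, ← pow_succ', ← hgo, pow_orderOf_eq_one]) with e | e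
      · rw [← orderOf_dvd_iff_pow_eq_one, hgo] at e
        have := (Nat.pow_dvd_pow_iff_le_right one_lt_two).1 e
        omega
      · exact h.conj_false (hSC _ hgS) hgb e (hMb _ hc)
    have hg2 : (g : G) * g = 1 := by
      rw [← pow_two, ← orderOf_dvd_iff_pow_eq_one, hgo]
      exact (pow_dvd_pow 2 hk1).trans (by norm_num)
    refine ⟨g, hgS, hgM, hg2, (c : G), ?_⟩
    rcases h.eq_tinv (y := (c : G) * g * (c : G)⁻¹) (hMb _ hc) (by
      rw [show (c : G) * g * (c : G)⁻¹ * ((c : G) * g * (c : G)⁻¹) = c * ((g : G) * g) * (c : G)⁻¹ by group, hg2,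
        mul_one, mul_inv_cancel]) with e | e
    · rw [mul_inv_eq_one, mul_eq_left] at e
      exact absurd ((Subtype.ext e : g = 1) ▸ M.one_mem) hgM
    · exact e
  have hsC : (s : G) ∈ C₀ := hSC _ hsS
  have hsb : (s : G) ∉ zpowers b := fun e => hsM (hMmem _ e hsS)
  have hsinv : (s : G)⁻¹ = s := inv_eq_of_mul_eq_one_right hss
  have hsN : s * s = 1 := Subtype.ext hss
  -- `s` inverts up to the involution
  have hinv : ∀ y ∈ zpowers b, (s : G) * y * s = y⁻¹ ∨ (s : G) * y * s = y⁻¹ * t₀ := by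
    intro y hy
    have h1 : (s : G) * y * s ∈ zpowers b := by
      have := h.conj_mem hsC hy
      rwa [hsinv] at this
    have hfix : (s : G) * (y * (s * y * s)) = y * (s * y * s) * s := by
      calc (s : G) * (y * (s * y * s)) = ((s : G) * y * s) * (y * s) := by group
        _ = (s * y * s * y) * s := by group
        _ = (y * (s * y * s)) * s := by rw [h.commute_torus h1 hy]
    rcases h.fixed_trivial hsC hsb hss hg₀ (mul_mem hy h1) hfix with e | e
    · exact Or.inl (eq_inv_of_mul_eq_one_right e)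
    · exact Or.inr (eq_inv_mul_of_mul_eq e)
  have hinv_odd : ∀ y ∈ zpowers b, Odd (orderOf y) → (s : G) * y * s = y⁻¹ := by
    intro y hy hodd
    refine (hinv y hy).resolve_right (fun e => ?_)
    have h1 : ((s : G) * y * s) ^ orderOf y = 1 := by
      have := conj_pow (a := (s : G)) (b := y) (i := orderOf y)
      rw [hsinv] at this
      rw [this, pow_orderOf_eq_one, mul_one, hss]
    rw [e, (show Commute y⁻¹ t₀ from h.commute_torus (inv_mem hy) h.tinv_mem).mul_pow, inv_pow, pow_orderOf_eq_one,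
      inv_one, one_mul] at h1
    obtain ⟨j, hj⟩ := hodd
    rw [hj, pow_succ, pow_mul, pow_two, h.tinv_sq, one_pow, one_mul] at h1
    exact h.tinv_ne_one h1
  -- a generator of `M`
  obtain ⟨r, hr⟩ := IsCyclic.exists_ofOrder_eq_natCard (α := M)
  set r' : G := ((r : N) : G) with hr'
  have hrb : r' ∈ zpowers b := hMb _ r.2
  have hMr : ∀ x ∈ M, ∃ i : ℕ, (x : G) = r' ^ i := by
    intro x hx
    have : zpowers r = ⊤ := Subgroup.eq_top_of_card_eq _ (by rw [Nat.card_zpowers, hr])
    obtain ⟨i, hi⟩ := mem_powers_iff_mem_zpowers.2 (show (⟨x, hx⟩ : M) ∈ zpowers r by rw [this]; trivial)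
    have hi' := congrArg (fun z : M => ((z : N) : G)) hi
    exact ⟨i, by simpa [hr'] using hi'.symm⟩
  obtain ⟨e, he⟩ := hpow2 (r : N) (hMle r.2)
  have hro : orderOf r' = 2 ^ e := by rw [hr', orderOf_coe, he]
  have htM : (⟨t₀, htN⟩ : N) ∈ M := hMmem _ h.tinv_mem htS
  have hn2 : 2 ≤ Nat.card M := by
    refine (Nat.one_lt_iff_ne_zero_and_ne_one).2 ⟨Nat.card_pos.ne', fun e1 => ?_⟩
    rw [Subgroup.card_eq_one] at e1
    rw [e1, Subgroup.mem_bot] at htM
    exact h.tinv_ne_one (congrArg Subtype.val htM)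
  have he1 : 1 ≤ e := by
    rcases Nat.eq_zero_or_pos e with rfl | h1
    · rw [← hr, ← orderOf_coe, he] at hn2
      simp at hn2
    · exact h1
  have hsr : (s : G) * r' * s = r'⁻¹ := by
    refine (hinv r' hrb).resolve_right (fun htw => ?_)
    have hne' : r'⁻¹ * t₀ ≠ r'⁻¹ := fun e1 => h.tinv_ne_one (mul_eq_left.1 e1)
    by_cases he2 : e ≤ 2
    · have hfix : (s : G) * r' = r' * s → False := fun hf => by
        rcases h.fixed_trivial hsC hsb hss hg₀ hrb hf with e1 | e1
        · rw [e1, orderOf_one] at hro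
          have : 2 ≤ 2 ^ e := Nat.le_self_pow (by omega) 2
          omega
        · apply hne'
          rw [← htw, e1, show t₀⁻¹ = t₀ from inv_eq_of_mul_eq_one_right h.tinv_sq,
            mem_centralizer_singleton_iff.1 hsC, mul_assoc, hss, mul_one]
      have h4 : r' * r' * (r' * r') = 1 := by
        rw [← pow_two, ← pow_two, ← pow_mul, ← orderOf_dvd_iff_pow_eq_one, hro]
        exact (pow_dvd_pow 2 he2).trans (by norm_num)
      rcases h.eq_tinv ((zpowers b).mul_mem hrb hrb) h4 with e1 | e1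
      · rcases h.eq_tinv hrb e1 with e2 | e2
        · rw [e2, orderOf_one] at hro
          have : 2 ≤ 2 ^ e := Nat.le_self_pow (by omega) 2
          omega
        · exact hfix (by rw [e2]; exact mem_centralizer_singleton_iff.1 hsC)
      · refine hfix ?_
        have : (s : G) * r' * s = r' := by rw [htw, ← e1]; group
        calc (s : G) * r' = (s * r' * s) * s := by rw [mul_assoc, hss, mul_one]
          _ = r' * s := by rw [this]
    push Not at he2
    -- the semidihedral case
    set R2 := zpowers ((r : N) ^ 2) with hR2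
    have hR2M : R2 ≤ M := zpowers_le.2 (M.pow_mem r.2 2)
    have hcomm : Commute r'⁻¹ t₀ := h.commute_torus (inv_mem hrb) h.tinv_mem
    have hsconj : ∀ i : ℕ, (s : G) * r' ^ i * s = (r'⁻¹) ^ i * t₀ ^ i := fun i => by
      have := conj_pow (a := (s : G)) (b := r') (i := i)
      rw [hsinv, htw, hcomm.mul_pow] at this
      exact this.symm
    have hsqev : ∀ j : ℕ, t₀ ^ (2 * j) = 1 := fun j => by rw [pow_mul, pow_two, h.tinv_sq, one_pow]
    have hsR : ∀ z ∈ R2, s * z * s ∈ R2 := by
      intro z hz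
      obtain ⟨j, rfl⟩ := mem_powers_iff_mem_zpowers.2 hz
      have : s * ((r : N) ^ 2) ^ j * s = (((r : N) ^ 2) ^ j)⁻¹ := Subtype.ext (by
        push_cast
        rw [← hr', ← pow_mul, hsconj, hsqev, mul_one, inv_pow])
      show s * ((r : N) ^ 2) ^ j * s ∈ R2
      rw [this]
      exact inv_mem (pow_mem (mem_zpowers _) _)
    let M' : Subgroup N :=
      { carrier := {x | x ∈ R2 ∨ s * x ∈ R2}
        one_mem' := Or.inl R2.one_mem
        mul_mem' := by
          rintro x y (hx | hx) (hy | hy)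
          · exact Or.inl (mul_mem hx hy)
          · refine Or.inr ?_
            have := mul_mem (hsR x hx) hy
            rwa [show s * x * s * (s * y) = s * x * (s * s) * y by group, hsN, mul_one, mul_assoc] at this
          · exact Or.inr (by rw [← mul_assoc]; exact mul_mem hx hy)
          · refine Or.inl ?_
            have := mul_mem (hsR _ hx) hy
            rwa [show s * (s * x) * s * (s * y) = (s * s) * x * (s * s) * y by group, hsN, one_mul, mul_one] at this
        inv_mem' := by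
          rintro x (hx | hx)
          · exact Or.inl (inv_mem hx)
          · refine Or.inr ?_
            have := hsR _ (inv_mem hx)
            rwa [show s * (s * x)⁻¹ * s = s * x⁻¹ * (s⁻¹ * s) by group, inv_mul_cancel, mul_one] at this }
    have hM' : ∀ x, x ∈ M' ↔ x ∈ R2 ∨ s * x ∈ R2 := fun x => Iff.rfl
    have hR2G : ∀ x : N, x ∈ R2 → ∃ j : ℕ, (x : G) = r' ^ (2 * j) := fun x hx => by
      obtain ⟨j, rfl⟩ := mem_powers_iff_mem_zpowers.2 hx
      exact ⟨j, by simp only [Subgroup.coe_pow, ← pow_mul, ← hr']⟩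
    have hodd : ∀ i : ℕ, ∀ x : N, (x : G) = r' ^ i → Odd i → x ∉ R2 := by
      intro i x hx hi hx'
      obtain ⟨j, hj⟩ := hR2G x hx'
      rw [hx] at hj
      have h1 := pow_eq_pow_iff_modEq.1 hj
      rw [hro] at h1
      have h2 : i ≡ 2 * j [MOD 2] := Nat.ModEq.of_dvd (dvd_pow_self 2 (by omega)) h1
      rw [Nat.ModEq] at h2
      rw [Nat.odd_iff] at hi
      omega
    have hdec : ∀ x ∈ (S : Subgroup N), ∃ i : ℕ, (x : G) = r' ^ i ∨ (x : G) = s * r' ^ i := by
      intro x hx
      by_cases hxb : (x : G) ∈ zpowers b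
      · obtain ⟨i, hi⟩ := hMr x (hMmem _ hxb hx)
        exact ⟨i, Or.inl hi⟩
      · have hsx : s * x ∈ M := hMmem _ ((h.mul_mem_iff hsC (hSC _ hx)).2 (iff_of_false hsb hxb)) (mul_mem hsS hx)
        obtain ⟨i, hi⟩ := hMr _ hsx
        exact ⟨i, Or.inr (by rw [← hi, Subgroup.coe_mul, ← mul_assoc, hss, one_mul])⟩
    have hnot : ∀ x : N, (x : G) ∈ zpowers b → s * x ∉ R2 := fun x hx hc => by
      have := hMb _ (hR2M hc)
      rw [Subgroup.coe_mul] at this
      exact hsb (((zpowers b).mul_mem_cancel_right hx).1 this)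
    have hrM' : (r : N) ∉ M' := by
      rw [hM']
      rintro (hc | hc)
      · exact hodd 1 _ (by rw [pow_one]) odd_one hc
      · exact hnot _ hrb hc
    have hev : ∀ i : ℕ, Even i → (r : N) ^ i ∈ R2 := fun i ⟨j, hj⟩ => by
      rw [hj, ← two_mul, pow_mul]; exact pow_mem (mem_zpowers _) _
    have hclass : ∀ x ∈ (S : Subgroup N), x ∈ M' ∨ ∃ i, Odd i ∧ ((x : G) = r' ^ i ∨ (x : G) = s * r' ^ i) := by
      intro x hx
      obtain ⟨i, hi⟩ := hdec x hx
      rcases Nat.even_or_odd i with hi2 | hi2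
      · left
        rcases hi with hi | hi
        · exact (hM' x).2 (Or.inl ((show x = (r : N) ^ i from Subtype.ext (by rw [hi, Subgroup.coe_pow])) ▸ hev i hi2))
        · refine (hM' x).2 (Or.inr ?_)
          have : s * x = (r : N) ^ i := Subtype.ext (by
            rw [Subgroup.coe_mul, hi, ← mul_assoc, hss, one_mul, Subgroup.coe_pow])
          rw [this]; exact hev i hi2
      · exact Or.inr ⟨i, hi2, hi⟩
    have hsq : ∀ i : ℕ, Odd i → ((s : G) * r' ^ i) * (s * r' ^ i) = t₀ := fun i hi => by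
      rw [show ((s : G) * r' ^ i) * (s * r' ^ i) = (s * r' ^ i * s) * r' ^ i by group, hsconj, mul_assoc,
        h.commute_torus (Subgroup.pow_mem _ h.tinv_mem i) (Subgroup.pow_mem _ hrb i), ← mul_assoc, inv_pow,
        inv_mul_cancel, one_mul]
      obtain ⟨j, rfl⟩ := hi
      rw [pow_succ, hsqev, one_mul]
    have hrel' : M'.relIndex (S : Subgroup N) = 2 := by
      rw [relIndex, index_eq_two_iff]
      refine ⟨⟨(r : N), hMle r.2⟩, fun y => ?_⟩
      rcases hclass y y.2 with hy | ⟨i, hi, hy⟩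
      · exact Or.inr ⟨mem_subgroupOf.2 hy, fun hc => hrM' ((M'.mul_mem_cancel_left hy).1 (mem_subgroupOf.1 hc))⟩
      · refine Or.inl ⟨mem_subgroupOf.2 ((hM' _).2 ?_), fun hc => ?_⟩
        · rcases hy with hy | hy
          · left
            have : (y : N) * (r : N) = (r : N) ^ (i + 1) := Subtype.ext (by
              rw [Subgroup.coe_mul, hy, Subgroup.coe_pow, pow_succ])
            show (y : N) * (r : N) ∈ R2
            rw [this]; exact hev _ hi.add_one
          · right
            have : s * ((y : N) * (r : N)) = (r : N) ^ (i + 1) := Subtype.ext (by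
              rw [Subgroup.coe_mul, Subgroup.coe_mul, hy, Subgroup.coe_pow, pow_succ, ← mul_assoc, ← mul_assoc, hss,
                one_mul])
            show s * ((y : N) * (r : N)) ∈ R2
            rw [this]; exact hev _ hi.add_one
        · rcases (hM' _).1 (mem_subgroupOf.1 hc) with hc | hc <;> rcases hy with hy | hy
          · exact hodd i _ hy hi hc
          · have := hMb _ (hR2M hc)
            rw [hy] at this
            exact hsb (((zpowers b).mul_mem_cancel_right (Subgroup.pow_mem _ hrb i)).1 this)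
          · exact hnot _ (hy ▸ Subgroup.pow_mem _ hrb i) hc
          · exact hodd i (s * (y : N)) (by rw [Subgroup.coe_mul, hy, ← mul_assoc, hss, one_mul]) hi hc
    set g : N := s * (r : N) with hg
    have hgG : (g : G) = s * r' := by rw [hg, Subgroup.coe_mul]
    have hg2 : (g : G) ^ 2 = t₀ := by rw [pow_two, hgG]; simpa using hsq 1 odd_one
    have hgo : orderOf g = 4 := by
      rw [← orderOf_coe]
      refine orderOf_eq_prime_pow (p := 2) (n := 1) ?_ ?_
      · rw [pow_one, hg2]; exact h.tinv_ne_one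
      · rw [show 2 ^ (1 + 1) = 2 * 2 from rfl, pow_mul, hg2, pow_two, h.tinv_sq]
    have hgM' : g ∉ M' := fun hc => hrM' ((M'.mul_mem_cancel_left ((hM' s).2 (Or.inr (by rw [hsN]; exact R2.one_mem)))).1 hc)
    obtain ⟨c, hc⟩ := exists_conj_mem_of_minimal S hno M' hrel' (mul_mem hsS (hMle r.2)) hgM' (fun x hx hxM => by
      rw [hgo]
      obtain ⟨i, hi, hxi⟩ := (hclass x hx).resolve_left hxM
      rw [← orderOf_coe]
      rcases hxi with hxi | hxi <;> rw [hxi]
      · rw [orderOf_pow' r' (by rintro rfl; simp at hi), hro,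
          Nat.Coprime.gcd_eq_one ((Nat.coprime_two_left.2 hi).pow_left e), Nat.div_one]
        exact le_trans (by norm_num) (Nat.pow_le_pow_right two_pos he2)
      · refine le_of_eq (orderOf_eq_prime_pow (p := 2) (n := 1) ?_ ?_).symm
        · rw [pow_one, pow_two, hsq i hi]; exact h.tinv_ne_one
        · rw [show 2 ^ (1 + 1) = 2 * 2 from rfl, pow_mul, pow_two ((s : G) * r' ^ i), hsq i hi, pow_two, h.tinv_sq])
    rcases (hM' _).1 hc with hc | hc
    · refine h.conj_false (c := (c : G)) (hSC g (mul_mem hsS (hMle r.2))) ?_ hg2 (hMb _ (hR2M hc))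
      intro hgb
      rw [hgG] at hgb
      exact hsb (((zpowers b).mul_mem_cancel_right hrb).1 hgb)
    · obtain ⟨j, hj⟩ := hR2G _ hc
      have h1 : ((c * g * c⁻¹ : N) : G) = s * r' ^ (2 * j) := by
        rw [← hj]
        show ((c * g * c⁻¹ : N) : G) = (s : G) * ((s : G) * ((c * g * c⁻¹ : N) : G))
        rw [← mul_assoc (s : G) (s : G), hss, one_mul]
      have h2 : (c * g * c⁻¹ : N) * (c * g * c⁻¹) = 1 := Subtype.ext (by
        rw [Subgroup.coe_mul, h1,
          show ((s : G) * r' ^ (2 * j)) * (s * r' ^ (2 * j)) = (s * r' ^ (2 * j) * s) * r' ^ (2 * j) by group,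
          hsconj, hsqev, mul_one, inv_pow, inv_mul_cancel]
        rfl)
      have h3 : orderOf (c * g * c⁻¹) = 4 := by rw [orderOf_conj', hgo]
      have := orderOf_dvd_of_pow_eq_one (show (c * g * c⁻¹) ^ 2 = 1 by rw [pow_two, h2])
      rw [h3] at this
      norm_num at this
  -- dihedral
  have hD : Nonempty ((S : Subgroup N) ≃* DihedralGroup (Nat.card M)) := by
    haveI : NeZero (Nat.card M) := ⟨Nat.card_pos.ne'⟩
    refine Cfsg.Agent.PermGroups.CubicSuborbit.nonempty_mulEquiv_dihedral (⟨s, hsS⟩ : (S : Subgroup N))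
      ⟨(r : N), hMle r.2⟩ ?_ (Subtype.ext hsN) (Subtype.ext (Subtype.ext ?_)) ?_ hSn
    · rw [orderOf_mk, orderOf_coe, hr]
    · show (s : G) * r' * s = r'⁻¹
      exact hsr
    · intro hc
      obtain ⟨i, hi⟩ := hc
      have hi' : (r : N) ^ i = s := congrArg Subtype.val hi
      apply hsM
      rw [← hi']
      exact M.zpow_mem r.2 i
  -- the hypotheses of S0508
  set t : N := ⟨t₀, htN⟩ with ht
  have hto : orderOf t = 2 := by rw [← orderOf_coe, ht]; exact h.orderOf_tinv
  have htG : ∀ x : N, x ∈ centralizer ({t} : Set N) ↔ (x : G) ∈ C₀ := fun x => by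
    rw [mem_centralizer_singleton_iff, mem_centralizer_singleton_iff]
    exact Subtype.ext_iff
  set O := (Cfsg.oddCore (centralizer ({t} : Set N))).map (centralizer ({t} : Set N)).subtype with hO
  have hOb : ∀ y ∈ O, (y : G) ∈ zpowers b ∧ Odd (orderOf (y : G)) := by
    rintro _ ⟨y, hy, rfl⟩
    have hnd := Cfsg.Agent.Core.not_dvd_card_pPrimeCore 2 (centralizer ({t} : Set N))
    have hd : orderOf (((centralizer ({t} : Set N)).subtype y : N) : G) ∣
        Nat.card (Cfsg.oddCore (centralizer ({t} : Set N))) := by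
      rw [orderOf_coe, Subgroup.coe_subtype, orderOf_coe, ← orderOf_mk y hy]
      exact orderOf_dvd_natCard _
    have hodd : Odd (orderOf (((centralizer ({t} : Set N)).subtype y : N) : G)) :=
      Nat.odd_iff.2 (Nat.two_dvd_ne_zero.1 (fun h2 => hnd (h2.trans hd)))
    exact ⟨h.mem_of_odd ((htG _).1 y.2) hodd, hodd⟩
  have hout : ∀ x ∈ (S : Subgroup N), x ∉ M → ∀ y ∈ O, x * y * x⁻¹ = y⁻¹ := by
    intro x hx hxM y hy
    obtain ⟨hyb, hyo⟩ := hOb y hy
    have hxb : (x : G) ∉ zpowers b := fun e => hxM (hMmem _ e hx)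
    have hw : (s : G) * x ∈ zpowers b := (h.mul_mem_iff hsC (hSC _ hx)).2 (iff_of_false hsb hxb)
    refine Subtype.ext ?_
    show (x : G) * y * (x : G)⁻¹ = (y : G)⁻¹
    have hc : Commute ((s : G) * x) (y : G) := h.commute_torus hw hyb
    calc (x : G) * y * (x : G)⁻¹ = (s : G)⁻¹ * (((s : G) * x) * y * ((s : G) * x)⁻¹) * s := by group
      _ = (y : G)⁻¹ := by rw [hc.eq, mul_inv_cancel_right, hsinv, hinv_odd _ hyb hyo]
  have hMcent : ∀ x ∈ M, x ∈ centralizer (O : Set N) := fun x hx => mem_centralizer_iff.2 fun y hy =>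
    Subtype.ext (h.commute_torus (hOb y hy).1 (hMb _ hx))
  refine Cfsg.Agent.S0508.result S (Nat.card M) hn2 hD t hto htS
    (fun x hx => Subtype.ext (mem_centralizer_singleton_iff.1 (hSC x hx))) O rfl ?_ ?_ ?_
  · intro hOne
    obtain ⟨y, hy, hy1⟩ := O.bot_or_exists_ne_one.resolve_left hOne
    have heq : (S : Subgroup N) ⊓ centralizer (O : Set N) = M := by
      refine le_antisymm (fun x hx => ?_) (le_inf hMle hMcent)
      by_contra hxM
      have h1 := hout x hx.1 hxM y hy
      rw [← mem_centralizer_iff.1 hx.2 y hy, mul_inv_cancel_right] at h1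
      apply hy1
      obtain ⟨j, hj⟩ := (hOb y hy).2
      have hy2 : (y : G) * y = 1 := by
        have e1 : (y : G) = (y : G)⁻¹ := congrArg Subtype.val h1
        calc (y : G) * y = (y : G)⁻¹ * y := by rw [← e1]
          _ = 1 := inv_mul_cancel _
      have := pow_orderOf_eq_one (y : G)
      rw [hj, pow_succ, pow_mul, pow_two, hy2, one_pow, one_mul] at this
      exact Subtype.ext this
    rw [heq]
    exact ⟨hMcyc, hMrel⟩
  · intro x hx hxC y hy
    exact hout x hx (fun e => hxC (hMcent x e)) y hy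
  · intro Y hY hYne x hx
    obtain ⟨z, hz, hz1⟩ := Y.bot_or_exists_ne_one.resolve_left hYne
    obtain ⟨hzb, hzo⟩ := hOb z (hY hz)
    have hz1' : (z : G) ≠ 1 := fun e => hz1 (Subtype.ext e)
    rw [htG]
    -- the centraliser of `z` is the torus
    have hle : zpowers b ≤ centralizer ({(z : G)} : Set G) := fun u hu =>
      mem_centralizer_singleton_iff.2 (h.commute_torus hu hzb)
    have hCz : centralizer ({(z : G)} : Set G) = zpowers b := by
      by_contra hne'
      have hd := h.cent_B hz1' (h.orderOf_dvd_B hzb)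
      obtain ⟨k, hk⟩ : B ∣ Nat.card (centralizer ({(z : G)} : Set G)) := by
        have := Subgroup.card_dvd_of_le hle
        rwa [Nat.card_zpowers, h.hb] at this
      rw [hk, mul_comm 2 B, Nat.mul_dvd_mul_iff_left (by have := h.hB2; omega)] at hd
      rcases (Nat.dvd_prime Nat.prime_two).1 hd with rfl | rfl
      · exact hne' (Subgroup.eq_of_le_of_card_ge hle (by rw [hk, Nat.card_zpowers, h.hb, mul_one])).symm
      have hidx : ((zpowers b).subgroupOf (centralizer ({(z : G)} : Set G))).index = 2 := by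
        have h1 := ((zpowers b).subgroupOf (centralizer ({(z : G)} : Set G))).card_mul_index
        rw [Nat.card_congr (subgroupOfEquivOfLe hle).toEquiv, Nat.card_zpowers, h.hb, hk] at h1
        exact Nat.eq_of_mul_eq_mul_left (by have := h.hB2; omega) h1
      haveI := Subgroup.normal_of_index_eq_two hidx
      have hsub : centralizer ({(z : G)} : Set G) ≤ C₀ := fun u hu => h.mem_cent_of_normalizes (fun y hy => by
        have := (inferInstance : ((zpowers b).subgroupOf (centralizer ({(z : G)} : Set G))).Normal).conj_mem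
          ⟨y, hle hy⟩ (mem_subgroupOf.2 hy) ⟨u, hu⟩
        exact mem_subgroupOf.1 this)
      have heq := Subgroup.eq_of_le_of_card_ge hsub (by rw [hk, h.card_cent, mul_comm])
      have h1 : (s : G) * z = z * s := mem_centralizer_singleton_iff.1 (heq ▸ hsC)
      rcases h.fixed_trivial hsC hsb hss hg₀ hzb h1 with e | e
      · exact hz1' e
      · rw [e, h.orderOf_tinv] at hzo
        exact absurd hzo (by decide)
    refine h.mem_cent_of_normalizes (fun y hy => ?_)
    rw [← hCz, mem_centralizer_singleton_iff]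
    have hz2 : x⁻¹ * z * x ∈ Y := (mem_normalizer_iff''.1 hx z).1 hz
    have h2 : y * ((x⁻¹ * z * x : N) : G) = ((x⁻¹ * z * x : N) : G) * y :=
      h.commute_torus hy (hOb _ (hY hz2)).1
    have := (conj_commute_iff (x : G) _ _).2 h2
    simpa [mul_assoc] using this

end Ctx

end Cfsg.Agent.SmallOrder.PSL2Spec
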