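import Mathlib.FieldTheory.Finite.GaloisField
import Cfsg.Agent.SmallOrder.PSL2Spec.Dihedral
import Cfsg.Agent.Linear.PSL2Spectrum
import Cfsg.Agent.Linear.Card
import Cfsg.Agent.Linear.Congr

/-!
# Recognition of `PSL₂(q)`, `q` odd, by order and spectrum
-/

set_option autoImplicit false
set_option linter.unusedSectionVars false

namespace Cfsg.Agent.SmallOrder.PSL2Spec

open Subgroup

universe u v

/-- The arithmetic of `PSL₂(q)`, `q` odd. -/
theorem psl_data (F : Type v) [Field F] [Fintype F] (hodd : Odd (Fintype.card F)) (h4 : 4 ≤ Fintype.card F) :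
    ∃ p n m B : ℕ, p.Prime ∧ p ≠ 2 ∧ n ≠ 0 ∧ Fintype.card F = p ^ n ∧ Fintype.card F = m + B ∧
      (m = B + 1 ∨ B = m + 1) ∧ Odd m ∧ 3 ≤ m ∧ 2 ≤ B ∧ 2 ∣ B ∧
      Nat.card (Matrix.ProjectiveSpecialLinearGroup (Fin 2) F) = 2 * Fintype.card F * m * B ∧
      Set.range (orderOf : Matrix.ProjectiveSpecialLinearGroup (Fin 2) F → ℕ) = {d | d ∣ p ∨ d ∣ m ∨ d ∣ B} := by
  obtain ⟨p, hp⟩ := CharP.exists F
  obtain ⟨n, hpp, hn⟩ := FiniteField.card F p
  haveI : Fact p.Prime := ⟨hpp⟩
  have hg : Nat.gcd 2 (Fintype.card F - 1) = 2 := Nat.gcd_eq_left (Nat.Odd.sub_odd hodd odd_one).two_dvd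
  have hs := Cfsg.Agent.Linear.PSL2Classes.range_orderOf (F := F) p
  rw [hg] at hs
  have hc := Cfsg.Agent.Linear.card_PSL_two (F := F)
  rw [hg] at hc
  have hp2 : p ≠ 2 := by
    rintro rfl
    rw [hn] at hodd
    exact (Nat.not_odd_iff_even.2 (Nat.even_pow.2 ⟨even_two, n.ne_zero⟩)) hodd
  obtain ⟨k, hk⟩ := hodd
  generalize hq : Fintype.card F = q at *
  subst hk
  have hsq : (2 * k + 1) ^ 2 - 1 = 4 * k * (k + 1) := by
    have : (2 * k + 1) ^ 2 = 4 * k * (k + 1) + 1 := by ring
    omega
  rcases Nat.even_or_odd k with hk2 | hk2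
  · refine ⟨p, n, k + 1, k, hpp, hp2, n.ne_zero, hn, by omega, Or.inl rfl, hk2.add_one,
      ?_, ?_, hk2.two_dvd, ?_, ?_⟩
    · obtain ⟨j, hj⟩ := hk2; omega
    · obtain ⟨j, hj⟩ := hk2; omega
    · refine Nat.eq_of_mul_eq_mul_left two_pos ?_
      rw [hc]
      first
        | (rw [hsq]; ring)
        | (simp only [one_pow]; rw [hsq]; ring)
    · rw [hs, show (2 * k + 1 - 1) / 2 = k by omega, show (2 * k + 1 + 1) / 2 = k + 1 by omega]
      ext d
      simp only [Set.mem_setOf_eq]
      tauto
  · refine ⟨p, n, k, k + 1, hpp, hp2, n.ne_zero, hn, by omega, Or.inr rfl, hk2, ?_, ?_, hk2.add_one.two_dvd, ?_, ?_⟩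
    · obtain ⟨j, hj⟩ := hk2; omega
    · omega
    · refine Nat.eq_of_mul_eq_mul_left two_pos ?_
      rw [hc]
      first
        | (rw [hsq]; ring)
        | (simp only [one_pow]; rw [hsq]; ring)
    · rw [hs, show (2 * k + 1 - 1) / 2 = k by omega, show (2 * k + 1 + 1) / 2 = k + 1 by omega]

theorem mem_range_iff_of_equiv {H K : Type*} [Group H] [Group K] (e : H ≃* K) :
    Set.range (orderOf : H → ℕ) = Set.range (orderOf : K → ℕ) := by
  ext d
  constructor
  · rintro ⟨x, rfl⟩; exact ⟨e x, e.orderOf_eq x⟩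
  · rintro ⟨x, rfl⟩; exact ⟨e.symm x, e.symm.orderOf_eq x⟩

theorem exponent_prime_cyclic {H : Type*} [Group H] [Finite H] [IsCyclic H] {r : ℕ} (hr : r.Prime)
    (h : ∀ x : H, x ^ r = 1) : Nat.card H ∣ r := by
  obtain ⟨x, hx⟩ := IsCyclic.exists_ofOrder_eq_natCard (α := H)
  rw [← hx]
  exact orderOf_dvd_of_pow_eq_one (h x)

variable {G : Type u} [Group G] [Finite G]

namespace Ctx

variable {p n q m B : ℕ} {a b : G} (h : Ctx G p n q m B a b)
include h

theorem sylow_cyclic_m {s : ℕ} [Fact s.Prime] (hsm : s ∣ m) (S : Subgroup G) (hS : IsPGroup s S) : IsCyclic S := by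
  set c := a ^ (orderOf a / s ^ (Nat.card G).factorization s)
  have hc : orderOf c = s ^ (Nat.card G).factorization s :=
    orderOf_pow_orderOf_div (orderOf_pos a).ne' (h.fac_m Fact.out hsm)
  let P : Sylow s G := Sylow.ofCard (zpowers c) (by rw [Nat.card_zpowers, hc])
  obtain ⟨Q, hQ⟩ := hS.exists_le_sylow
  haveI : IsCyclic (P : Subgroup G) := by
    show IsCyclic (zpowers c)
    infer_instance
  haveI : IsCyclic (Q : Subgroup G) := isCyclic_of_injective (Sylow.equiv Q P).toMonoidHom (MulEquiv.injective _)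
  exact isCyclic_of_injective (Subgroup.inclusion hQ) (Subgroup.inclusion_injective hQ)

/-- Frattini: the `p`-part of the index is at most `p`. -/
theorem p_part_frattini (N : Subgroup G) [N.Normal] {s : ℕ} [Fact s.Prime] (hsm : s ∣ m) (hsN : s ∣ Nat.card N) :
    ∃ y, (y ≤ 1 ∧ n ≤ (Nat.card N).factorization p + y) ∧
      (1 ≤ y → ∃ R : Subgroup G, IsPGroup s R ∧ R ≠ ⊥ ∧ R ≤ N ∧ p ∣ Nat.totient (Nat.card R)) := by
  haveI : Fact p.Prime := ⟨h.hp⟩
  obtain ⟨R⟩ := (inferInstance : Nonempty (Sylow s N))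
  have hcard := card_frattini N R
  set R' := (R : Subgroup N).map N.subtype with hR'
  set H := normalizer (R' : Set G) with hH
  have hR'p : IsPGroup s R' := R.2.map _
  have hR'ne : R' ≠ ⊥ := by
    rw [hR', Ne, Subgroup.map_eq_bot_iff_of_injective _ N.subtype_injective]
    exact R.ne_bot_of_dvd_card hsN
  obtain ⟨T⟩ := (inferInstance : Nonempty (Sylow p H))
  set T' := (T : Subgroup H).map H.subtype with hT'
  have hT'c : Nat.card T' = p ^ (Nat.card H).factorization p := by
    rw [hT', Subgroup.card_map_of_injective H.subtype_injective]; exact T.card_eq_multiplicity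
  have hd := h.p_le_of_normalizes Fact.out hsm R' hR'p hR'ne T' (map_subtype_le _) (T.2.map _)
  rw [hT'c] at hd
  refine ⟨(Nat.card H).factorization p, ⟨?_, ?_⟩, fun hy => ⟨R', hR'p, hR'ne, map_subtype_le _, ?_⟩⟩
  · exact (Nat.pow_dvd_pow_iff_le_right h.hp.one_lt).1 (by rwa [pow_one])
  · have := congrArg (fun i => i.factorization p) hcard
    rw [Nat.factorization_mul Nat.card_pos.ne' Nat.card_pos.ne',
      Nat.factorization_mul Nat.card_pos.ne' Nat.card_pos.ne'] at this
    simp only [Finsupp.add_apply] at this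
    have hG : (Nat.card G).factorization p = n := by
      have hnd : ¬ p ∣ 2 * m * B := fun hd' => by
        rcases h.hp.dvd_mul.1 hd' with e | e
        · rcases h.hp.dvd_mul.1 e with e | e
          · exact h.hp2 ((Nat.prime_dvd_prime_iff_eq h.hp Nat.prime_two).1 e)
          · exact h.not_p_dvd_m e
        · exact h.not_p_dvd_B e
      rw [h.hcard, h.hq, show 2 * p ^ n * m * B = p ^ n * (2 * m * B) by ring,
        Nat.factorization_mul (pow_ne_zero _ h.hp.ne_zero) (fun e => hnd (by rw [e]; exact dvd_zero p))]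
      simp [Nat.factorization_eq_zero_of_not_dvd hnd, h.hp.factorization_self]
    rw [hG] at this
    omega
  · have h2 := (h.cyclic_of_normalizes Fact.out hsm R' hR'p hR'ne T' (map_subtype_le _) (by
      rw [hT'c]; exact ((Nat.Prime.coprime_iff_not_dvd h.hp).2 h.not_p_dvd_m).pow_left _)).2
    rw [hT'c] at h2
    exact (dvd_pow_self p (by omega)).trans h2

set_option maxHeartbeats 1000000 in
/-- The conclusion. -/
theorem nonempty_psl {F : Type v} [Field F] [Fintype F] (hF : Fintype.card F = q) :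
    Nonempty (G ≃* Matrix.ProjectiveSpecialLinearGroup (Fin 2) F) := by
  classical
  haveI : Fact p.Prime := ⟨h.hp⟩
  have hm3 := h.hm
  have hB2 := h.hB2
  haveI : Nontrivial G := Finite.one_lt_card_iff_nontrivial.1 (by
    rw [h.hcard]
    have : 1 ≤ q := by have := h.hqmB; omega
    nlinarith [Nat.mul_le_mul (Nat.mul_le_mul (Nat.mul_le_mul (le_refl 2) this) hm3) hB2])
  obtain ⟨N, hN, hne, hmin⟩ := exists_minimal_normal (G := G)
  haveI := hN
  haveI := h.isSimpleGroup_of_minimal N hne hmin
  obtain ⟨hpN, ⟨s, hs, hsm, hsN⟩, -⟩ := h.three_types N hne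
  haveI : Fact s.Prime := ⟨hs⟩
  obtain ⟨F', iF, iF', hodd, ⟨e⟩⟩ := h.exists_psl N hne
  have hsne : s ≠ p := fun e1 => h.not_p_dvd_m (e1 ▸ hsm)
  have hs2 : s ≠ 2 := fun e1 => h.not_two_dvd_m (e1 ▸ hsm)
  have hF4 : 4 ≤ Fintype.card F' := by
    by_contra hlt
    have h1 : 1 < Fintype.card F' := Fintype.one_lt_card
    obtain ⟨k, hk⟩ := hodd
    have h3 : Fintype.card F' = 3 := by omega
    have hc := Cfsg.Agent.Linear.card_PSL_two (F := F')
    rw [h3, ← Nat.card_congr e.toEquiv] at hc
    norm_num at hc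
    have h12 : Nat.card N = 12 := by omega
    rw [h12] at hpN hsN
    have key : ∀ r : ℕ, r.Prime → r ∣ 12 → r ≠ 2 → r = 3 := fun r hr hd hr2 => by
      have := Nat.le_of_dvd (by norm_num) hd
      interval_cases r <;> first | rfl | omega | (exfalso; revert hr; norm_num)
    exact hsne ((key s hs hsN hs2).trans (key p h.hp hpN h.hp2).symm)
  obtain ⟨p', j, m', B', hp', hp'2, hj, hq', hqmB', hmB', hm'odd, hm'3, hB'2, hB'ev, hcard', hspec'⟩ :=
    psl_data F' hodd hF4
  set q' := Fintype.card F' with hq'def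
  rw [← mem_range_iff_of_equiv e] at hspec'
  rw [← Nat.card_congr e.toEquiv] at hcard'
  have hex : ∀ d, d ∣ p' ∨ d ∣ m' ∨ d ∣ B' → d ∣ p ∨ d ∣ m ∨ d ∣ B := by
    intro d hd
    obtain ⟨x, hx⟩ : d ∈ Set.range (orderOf : N → ℕ) := hspec' ▸ hd
    rw [← hx, ← orderOf_coe]
    exact h.hspec _
  have hN_spec : ∀ x : N, orderOf (x : G) ∣ p' ∨ orderOf (x : G) ∣ m' ∨ orderOf (x : G) ∣ B' := fun x => by
    have : orderOf x ∈ Set.range (orderOf : N → ℕ) := ⟨x, rfl⟩
    rw [hspec'] at this
    rwa [orderOf_coe]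
  have hB'B : B' ∣ B := by
    rcases hex B' (Or.inr (Or.inr dvd_rfl)) with e1 | e1 | e1
    · exact absurd ((Nat.prime_dvd_prime_iff_eq Nat.prime_two h.hp).1 (hB'ev.trans e1)).symm h.hp2
    · exact absurd (hB'ev.trans e1) h.not_two_dvd_m
    · exact e1
  have hdiv : ∀ r : ℕ, r.Prime → r ∣ Nat.card N → r ≠ 2 → ¬ r ∣ B → r = p' ∨ r ∣ m' := by
    intro r hr hrN hr2 hrB
    rw [hcard'] at hrN
    rcases hr.dvd_mul.1 hrN with e1 | e1
    · rcases hr.dvd_mul.1 e1 with e1 | e1
      · rcases hr.dvd_mul.1 e1 with e1 | e1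
        · exact absurd ((Nat.prime_dvd_prime_iff_eq hr Nat.prime_two).1 e1) hr2
        · exact Or.inl ((Nat.prime_dvd_prime_iff_eq hr hp').1 (hr.dvd_of_dvd_pow (hq' ▸ e1)))
      · exact Or.inr e1
    · exact absurd (e1.trans hB'B) hrB
  have hcopN : Nat.Coprime m' B' := by
    rcases hmB' with e1 | e1 <;> rw [e1] <;> simp
  have hfacN : (Nat.card N).factorization p' = j := by
    have hnd : ¬ p' ∣ 2 * m' * B' := fun hd => by
      have hpm : ¬ p' ∣ m' := fun h1 => by
        have h2 : p' ∣ B' := (Nat.dvd_add_right h1).1 (hqmB' ▸ hq' ▸ dvd_pow_self p' hj)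
        exact hp'.not_dvd_one (hcopN ▸ Nat.dvd_gcd h1 h2)
      have hpB : ¬ p' ∣ B' := fun h1 => hpm ((Nat.dvd_add_left h1).1 (hqmB' ▸ hq' ▸ dvd_pow_self p' hj))
      rcases hp'.dvd_mul.1 hd with e1 | e1
      · rcases hp'.dvd_mul.1 e1 with e1 | e1
        · exact hp'2 ((Nat.prime_dvd_prime_iff_eq hp' Nat.prime_two).1 e1)
        · exact hpm e1
      · exact hpB e1
    rw [hcard', hq', show 2 * p' ^ j * m' * B' = p' ^ j * (2 * m' * B') by ring,
      Nat.factorization_mul (pow_ne_zero _ hp'.ne_zero) (fun e1 => hnd (by rw [e1]; exact dvd_zero p'))]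
    simp [Nat.factorization_eq_zero_of_not_dvd hnd, hp'.factorization_self]
  obtain ⟨y, ⟨hy1, hyn⟩, hyt⟩ := h.p_part_frattini N hsm hsN
  have hqF : (2 * m = q + 1 ∧ m = B + 1) ∨ (2 * m + 1 = q ∧ B = m + 1) := by
    have := h.hqmB
    rcases h.hmB with e1 | e1
    · exact Or.inl ⟨by omega, e1⟩
    · exact Or.inr ⟨by omega, e1⟩
  obtain ⟨hcard_eq, hq'q'⟩ : Nat.card N = Nat.card G ∧ q' = q := by
    rcases hdiv p h.hp hpN h.hp2 h.not_p_dvd_B with hpp | hpm'
    · -- the same characteristic
      subst hpp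
      have hsm' : s ∣ m' := (hdiv s hs hsN hs2 (fun e1 => h.not_both hs hsm e1)).resolve_left hsne
      have hm'm : m' ∣ m := by
        rcases hex m' (Or.inr (Or.inl dvd_rfl)) with e1 | e1 | e1
        · exact absurd ((Nat.prime_dvd_prime_iff_eq hs h.hp).1 (hsm'.trans e1)) hsne
        · exact e1
        · exact (h.not_both hs hsm (hsm'.trans e1)).elim
      rw [hfacN] at hyn
      have hjn : j ≤ n := by
        have h1 : p ^ j ∣ Nat.card G := (show p ^ j ∣ Nat.card N by
          rw [← hfacN]; exact Nat.ordProj_dvd _ _).trans (Subgroup.card_subgroup_dvd_card N)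
        rw [h.hcard, show 2 * q * m * B = q * (2 * m * B) by ring] at h1
        have h2 : p ^ j ∣ q := by
          refine Nat.Coprime.dvd_of_dvd_mul_right ((Nat.Prime.coprime_iff_not_dvd h.hp).2 (fun hd' => ?_) |>.pow_left j) h1
          rcases h.hp.dvd_mul.1 hd' with e1 | e1
          · rcases h.hp.dvd_mul.1 e1 with e1 | e1
            · exact h.hp2 ((Nat.prime_dvd_prime_iff_eq h.hp Nat.prime_two).1 e1)
            · exact h.not_p_dvd_m e1
          · exact h.not_p_dvd_B e1
        exact (Nat.pow_dvd_pow_iff_le_right h.hp.one_lt).1 (h.hq ▸ h2)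
      rcases (by omega : n = j ∨ n = j + 1) with hnj | hnj
      · have hqq : q' = q := by rw [hq', h.hq, hnj]
        have h1 := h.hqmB
        obtain ⟨i, hi⟩ := hm'odd
        obtain ⟨i', hi'⟩ := h.hmodd
        have hmm : m' = m := by rcases h.hmB with e1 | e1 <;> rcases hmB' with e2 | e2 <;> omega
        have hBB : B' = B := by omega
        exact ⟨by rw [hcard', h.hcard, hqq, hmm, hBB], hqq⟩
      · exfalso
        have hqq : q = p * q' := by rw [hq', h.hq, hnj, pow_succ']
        have h4 : 4 * (m * B) + 1 = q * q := by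
          have := h.hqmB
          rcases h.hmB with e1 | e1 <;> rw [this, e1] <;> ring
        have h4' : 4 * (m' * B') + 1 = q' * q' := by
          rcases hmB' with e1 | e1 <;> rw [hqmB', e1] <;> ring
        obtain ⟨k, hk⟩ := Nat.mul_dvd_mul hm'm hB'B
        have hkey : 4 * (m' * B') ∣ p * p - 1 := by
          have h5 : 4 * (m' * B') * k + 1 = p * p * (4 * (m' * B')) + p * p := by
            rw [mul_assoc, ← hk, h4, hqq, show p * q' * (p * q') = p * p * (q' * q') by ring, ← h4']; ring
          have h6 : 4 * (m' * B') * k = p * p * (4 * (m' * B')) + (p * p - 1) := by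
            have := h.hp.one_lt
            have : 1 ≤ p * p := by nlinarith
            omega
          exact (Nat.dvd_add_right (dvd_mul_left _ _)).1 (h6 ▸ dvd_mul_right _ _)
        have hpp1 : 1 < p * p := by have := h.hp.one_lt; nlinarith
        have hle := Nat.le_of_dvd (by omega) hkey
        have hsqle : q' * q' ≤ p * p := by omega
        have hle' : q' ≤ p := Nat.mul_self_le_mul_self_iff.1 hsqle
        have hj1 : j = 1 := by
          rw [hq'] at hle'
          nth_rw 2 [← pow_one p] at hle'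
          exact le_antisymm ((Nat.pow_le_pow_iff_right h.hp.one_lt).1 hle') (Nat.one_le_iff_ne_zero.2 hj)
        have hq2 : q = p * p := by rw [hqq, hq', hj1, pow_one]
        have hq'p : q' = p := by rw [hq', hj1, pow_one]
        have h2m : 2 * m = p * p + 1 := by
          rcases hqF with ⟨e1, -⟩ | ⟨e1, e2⟩
          · omega
          · exfalso
            obtain ⟨i, hi⟩ := h.hmodd
            obtain ⟨l, hl⟩ := h.hp.odd_of_ne_two h.hp2
            have : p * p = 4 * (l * l + l) + 1 := by rw [hl]; ring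
            omega
        have hd1 : m' ∣ p * p + 1 := h2m ▸ hm'm.mul_left 2
        have hd2 : m' ∣ p * p - 1 := (Dvd.intro_left 4 rfl : m' * B' ∣ 4 * (m' * B')).trans hkey |> (dvd_mul_right m' B').trans
        have hd3 : m' ∣ 2 := by
          have := Nat.dvd_sub hd1 hd2
          rwa [show p * p + 1 - (p * p - 1) = 2 by omega] at this
        have := Nat.le_of_dvd two_pos hd3
        omega
    · -- `p` divides the odd torus of `N`
      exfalso
      have hm'p : m' = p := by
        rcases hex m' (Or.inr (Or.inl dvd_rfl)) with e1 | e1 | e1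
        · exact ((Nat.dvd_prime h.hp).1 e1).resolve_left (by omega)
        · exact absurd (hpm'.trans e1) h.not_p_dvd_m
        · exact absurd (hpm'.trans e1) h.not_p_dvd_B
      have hsp' : s = p' := (hdiv s hs hsN hs2 (fun e1 => h.not_both hs hsm e1)).resolve_right
        (fun e1 => hsne ((Nat.prime_dvd_prime_iff_eq hs h.hp).1 (hm'p ▸ e1)))
      subst hsp'
      obtain ⟨R⟩ := (inferInstance : Nonempty (Sylow s N))
      haveI : IsCyclic ((R : Subgroup N).map N.subtype) := h.sylow_cyclic_m hsm _ (R.2.map _)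
      have hj1 : j = 1 := by
        have h1 : Nat.card ((R : Subgroup N).map N.subtype) = s ^ j := by
          rw [Subgroup.card_map_of_injective N.subtype_injective, R.card_eq_multiplicity, hfacN]
        have h2 := exponent_prime_cyclic (H := (R : Subgroup N).map N.subtype) hs (fun x => by
          obtain ⟨z, hz, hzx⟩ := x.2
          obtain ⟨i, hi⟩ := isPGroup_prime_pow_dvd R.2 hz
          have hd : orderOf (z : G) ∣ s := by
            rw [orderOf_coe, hi]
            rcases Nat.eq_zero_or_pos i with rfl | hi0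
            · rw [pow_zero]; exact one_dvd _
            have hsd : s ∣ orderOf (z : G) := by rw [orderOf_coe, hi]; exact dvd_pow_self s (by omega)
            rcases hN_spec z with e1 | e1 | e1
            · rwa [orderOf_coe, hi] at e1
            · exact absurd ((Nat.prime_dvd_prime_iff_eq hs h.hp).1 (hm'p ▸ hsd.trans e1)) hsne
            · exact (h.not_both hs hsm ((hsd.trans e1).trans hB'B)).elim
          refine Subtype.ext ?_
          rw [Subgroup.coe_pow, ← hzx]
          exact orderOf_dvd_iff_pow_eq_one.1 hd)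
        rw [h1] at h2
        exact le_antisymm ((Nat.pow_dvd_pow_iff_le_right hs.one_lt).1 (by rwa [pow_one] : s ^ j ∣ s ^ 1))
          (Nat.one_le_iff_ne_zero.2 hj)
      have hN1 : (Nat.card N).factorization p = 1 := by
        have hpB : ¬ p ∣ B' := fun e1 => h.not_p_dvd_B (e1.trans hB'B)
        have hnd : ¬ p ∣ 2 * s * B' := fun hd => by
          rcases h.hp.dvd_mul.1 hd with e1 | e1
          · rcases h.hp.dvd_mul.1 e1 with e1 | e1
            · exact h.hp2 ((Nat.prime_dvd_prime_iff_eq h.hp Nat.prime_two).1 e1)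
            · exact hsne ((Nat.prime_dvd_prime_iff_eq h.hp hs).1 e1).symm
          · exact hpB e1
        rw [hcard', hq', hj1, pow_one, hm'p, show 2 * s * p * B' = p * (2 * s * B') by ring,
          Nat.factorization_mul h.hp.ne_zero (fun e1 => hnd (by rw [e1]; exact dvd_zero p))]
        simp [Nat.factorization_eq_zero_of_not_dvd hnd, h.hp.factorization_self]
      rw [hN1] at hyn
      have hsle : s ≤ m := Nat.le_of_dvd (by omega) hsm
      have hn := h.hn
      rw [hq', hj1, pow_one, hm'p] at hqmB'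
      rw [hm'p] at hmB'
      rcases (by omega : n = 1 ∨ n = 2) with hn1 | hn2
      · have hqp : q = p := by rw [h.hq, hn1, pow_one]
        have := h.hp.two_le
        rcases hqF with ⟨e1, -⟩ | ⟨e1, -⟩ <;> omega
      · obtain ⟨R', hR'p, hR'ne, hR'N, hdvd⟩ := hyt (by omega)
        have hR'c : Nat.card R' = s := by
          obtain ⟨i, hi⟩ := IsPGroup.iff_card.1 hR'p
          have hd : s ^ i ∣ Nat.card N := hi ▸ Subgroup.card_dvd_of_le hR'N
          rw [Nat.Prime.pow_dvd_iff_le_factorization hs Nat.card_pos.ne', hfacN, hj1] at hd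
          rcases Nat.le_one_iff_eq_zero_or_eq_one.1 hd with rfl | rfl
          · exact absurd (Subgroup.card_eq_one.1 (by simpa using hi)) hR'ne
          · rw [hi, pow_one]
        rw [hR'c, Nat.totient_prime hs] at hdvd
        have hs' : s = 2 * p + 1 := by
          rcases hmB' with e1 | e1
          · exfalso
            have h1 : p ∣ 2 := by
              have h2 : s - 1 + 2 = 2 * p := by omega
              exact (Nat.dvd_add_right hdvd).1 (h2 ▸ dvd_mul_left p 2)
            exact h.hp2 ((Nat.prime_dvd_prime_iff_eq h.hp Nat.prime_two).1 h1)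
          · omega
        have h2m : 2 * m = p * p + 1 := by
          have hq2 : q = p * p := by rw [h.hq, hn2, pow_two]
          rcases hqF with ⟨e1, -⟩ | ⟨e1, e2⟩
          · omega
          · exfalso
            obtain ⟨i, hi⟩ := h.hmodd
            obtain ⟨l, hl⟩ := h.hp.odd_of_ne_two h.hp2
            have : p * p = 4 * (l * l + l) + 1 := by rw [hl]; ring
            omega
        have h5 : s ∣ 5 := by
          obtain ⟨c, hc⟩ := hsm
          have h1 : 8 * m = 4 * (p * p) + 4 := by omega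
          have h7 : 4 * (p * p) + 4 = (2 * p + 1) * (2 * p - 1) + 5 := by
            obtain ⟨l, rfl⟩ : ∃ l, p = l + 1 := ⟨p - 1, by have := h.hp.two_le; omega⟩
            rw [show 2 * (l + 1) - 1 = 2 * l + 1 by omega]; ring
          have h8 : s ∣ 4 * (p * p) + 4 := ⟨8 * c, by rw [← h1, hc]; ring⟩
          rw [h7, ← hs'] at h8
          exact (Nat.dvd_add_right (dvd_mul_right _ _)).1 h8
        have := Nat.le_of_dvd (by norm_num) h5
        have := h.hp.two_le
        have := h.hp2
        omega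
  have hNtop : N = ⊤ := Subgroup.eq_top_of_card_eq _ hcard_eq
  have hq'q : Fintype.card F' = Fintype.card F := by rw [hF, ← hq'def]; exact hq'q'
  exact ⟨((Subgroup.topEquiv.symm.trans (MulEquiv.subgroupCongr hNtop.symm)).trans e).trans
    (Cfsg.Agent.Linear.pslCongr (FiniteField.ringEquivOfCardEq hq'q))⟩

end Ctx

end Cfsg.Agent.SmallOrder.PSL2Spec
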