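import Mathlib.GroupTheory.Solvable
import Cfsg.Agent.SmallOrder.PSL2Spec.Cyclic

/-!
# A minimal normal subgroup is simple
-/

set_option autoImplicit false
set_option linter.unusedSectionVars false

namespace Cfsg.Agent.SmallOrder.PSL2Spec

open Subgroup
open scoped commutatorElement

variable {G : Type*} [Group G] [Finite G]

theorem exists_minimal_normal [Nontrivial G] : ∃ N : Subgroup G, N.Normal ∧ N ≠ ⊥ ∧
    ∀ K : Subgroup G, K.Normal → K ≤ N → K = ⊥ ∨ K = N := by
  classical
  obtain ⟨N, ⟨hN, hN1⟩, hmin⟩ := Set.exists_min_image {N : Subgroup G | N.Normal ∧ N ≠ ⊥}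
    (fun N => Nat.card N) (Set.toFinite _) ⟨⊤, inferInstance, top_ne_bot⟩
  exact ⟨N, hN, hN1, fun K hK hle => or_iff_not_imp_left.2 fun hne =>
    Subgroup.eq_of_le_of_card_ge hle (hmin K ⟨hK, hne⟩)⟩

/-- An extension of a cyclic normal subgroup of index at most two is solvable. -/
theorem isSolvable_of_cyclic_index_two {H : Type*} [Group H] [Finite H] (K : Subgroup H) [IsCyclic K]
    (hK : 2 * Nat.card K ≥ Nat.card H) : Group.IsSolvable H := by
  have hle : K.index ≤ 2 := by
    have h1 := K.card_mul_index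
    have h2 : 0 < Nat.card K := Nat.card_pos
    nlinarith
  have hne : K.index ≠ 0 := Subgroup.index_ne_zero_of_finite
  have hsolK : Group.IsSolvable K := Group.isSolvable_of_comm fun x y => by
    letI := IsCyclic.commGroup (α := K); exact mul_comm x y
  rcases (by omega : K.index = 1 ∨ K.index = 2) with e | e
  · rw [Subgroup.index_eq_one] at e
    have hf : Function.Injective (Subgroup.topEquiv (G := H)).symm.toMonoidHom := MulEquiv.injective _
    subst e
    exact solvable_of_solvable_injective hf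
  · haveI := Subgroup.normal_of_index_eq_two e
    have hq : Group.IsSolvable (H ⧸ K) := by
      haveI : Fact (Nat.Prime 2) := ⟨Nat.prime_two⟩
      haveI := isCyclic_of_prime_card (α := H ⧸ K) (p := 2) (by rw [← Subgroup.index_eq_card, e])
      exact Group.isSolvable_of_comm fun x y => by
        letI := IsCyclic.commGroup (α := H ⧸ K); exact mul_comm x y
    exact solvable_of_ker_le_range K.subtype (QuotientGroup.mk' K) (by simp)

namespace Ctx

variable {p n q m B : ℕ} {a b : G} (h : Ctx G p n q m B a b)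
include h

theorem mul_self_ne (N : Subgroup G) [N.Normal] (hne : N ≠ ⊥) : ∃ x ∈ N, ∃ y ∈ N, x * y ≠ y * x := by
  by_contra hcon
  push Not at hcon
  obtain ⟨hp, ⟨s, hs, hsm, hsN⟩, -⟩ := h.three_types N hne
  obtain ⟨x, hx, hxo⟩ := exists_mem_prime_order N h.hp hp
  obtain ⟨y, hy, hyo⟩ := exists_mem_prime_order N hs hsN
  have h1 := h.cent_p (x := x) (fun e => h.hp.ne_one (by rw [← hxo, e, orderOf_one])) (by rw [hxo])
  have h2 := orderOf_dvd_natCard (⟨y, mem_centralizer_singleton_iff.2 (hcon y hy x hx)⟩ :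
    centralizer ({x} : Set G))
  rw [orderOf_mk, hyo] at h2
  exact h.not_p_dvd_m ((h.eq_p hs (h2.trans h1)) ▸ hsm)

theorem isSolvable_centralizer_B {z : G} {s : ℕ} (hs : s.Prime) (hs2 : s ≠ 2) (hsB : s ∣ B) (hz : orderOf z = s) :
    Group.IsSolvable (centralizer ({z} : Set G)) := by
  haveI : Fact s.Prime := ⟨hs⟩
  obtain ⟨g, hg⟩ := exists_conj_mem_zpowers b (h.fac_B hs hs2 hsB) (z := z) ⟨1, by rw [hz, pow_one]⟩
  have hmem : g⁻¹ * b * g ∈ centralizer ({z} : Set G) := by
    rw [mem_centralizer_singleton_iff]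
    obtain ⟨i, hi⟩ := hg
    simp only at hi
    have hc : b * (g * z * g⁻¹) = g * z * g⁻¹ * b := by rw [← hi]; exact (Commute.self_zpow b i).eq
    calc g⁻¹ * b * g * z = g⁻¹ * (b * (g * z * g⁻¹)) * g := by group
      _ = g⁻¹ * (g * z * g⁻¹ * b) * g := by rw [hc]
      _ = z * (g⁻¹ * b * g) := by group
  let K : Subgroup (centralizer ({z} : Set G)) := zpowers ⟨g⁻¹ * b * g, hmem⟩
  have hz1 : z ≠ 1 := fun e => hs.ne_one (by rw [← hz, e, orderOf_one])
  refine isSolvable_of_cyclic_index_two K ?_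
  have hK : Nat.card K = B := by
    rw [Nat.card_zpowers, orderOf_mk]
    have := orderOf_injective (MulAut.conj g⁻¹).toMonoidHom (MulEquiv.injective _) b
    simpa [h.hb] using this
  rw [hK]
  exact Nat.le_of_dvd (by have := h.hB2; omega) (h.cent_B hz1 (by rw [hz]; exact hsB))

/-- A minimal normal subgroup is simple. -/
theorem isSimpleGroup_of_minimal (N : Subgroup G) [N.Normal] (hne : N ≠ ⊥)
    (hmin : ∀ K : Subgroup G, K.Normal → K ≤ N → K = ⊥ ∨ K = N) : IsSimpleGroup N := by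
  haveI : Nontrivial N := (nontrivial_iff_ne_bot N).2 hne
  obtain ⟨M₀, hM₀, hM₀1, hM₀min⟩ := exists_minimal_normal (G := N)
  by_cases htop : M₀ = ⊤
  · refine ⟨fun K hK => ?_⟩
    rcases hM₀min K hK (htop ▸ le_top) with e | e
    · exact Or.inl e
    · exact Or.inr (e.trans htop)
  exfalso
  haveI := hM₀
  set M := M₀.map N.subtype with hMdef
  have hMN : M ≤ N := map_subtype_le _
  have hM1 : M ≠ ⊥ := by
    rw [hMdef, Ne, Subgroup.map_eq_bot_iff_of_injective _ N.subtype_injective]; exact hM₀1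
  have hMnorm : ∀ x ∈ N, ∀ y ∈ M, x * y * x⁻¹ ∈ M := by
    rintro x hx _ ⟨y, hy, rfl⟩
    exact ⟨⟨x, hx⟩ * y * ⟨x, hx⟩⁻¹, hM₀.conj_mem y hy _, rfl⟩
  have hMneN : M ≠ N := fun e => htop ((Subgroup.map_injective N.subtype_injective)
    (e.trans (by rw [← MonoidHom.range_eq_map, range_subtype])))
  obtain ⟨g, y₀, hy₀, hy₀'⟩ : ∃ g : G, ∃ y ∈ M, g * y * g⁻¹ ∉ M := by
    by_contra hcon
    push Not at hcon
    rcases hmin M ⟨fun y hy g => hcon g y hy⟩ hMN with e | e
    · exact hM1 e
    · exact hMneN e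
  set M' := M.map (MulAut.conj g).toMonoidHom with hM'def
  have hM'N : M' ≤ N := by
    rintro _ ⟨y, hy, rfl⟩
    exact (inferInstance : N.Normal).conj_mem y (hMN hy) g
  have hM'norm : ∀ x ∈ N, ∀ y ∈ M', x * y * x⁻¹ ∈ M' := by
    rintro x hx _ ⟨y, hy, rfl⟩
    refine ⟨g⁻¹ * x * g * y * (g⁻¹ * x * g)⁻¹, hMnorm _ ?_ y hy, ?_⟩
    · simpa using (inferInstance : N.Normal).conj_mem x hx g⁻¹
    · simp only [MulEquiv.coe_toMonoidHom, MulAut.conj_apply]; group
  have hcardM' : Nat.card M' = Nat.card M := Subgroup.card_map_of_injective (MulEquiv.injective _)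
  have hI : ∀ y ∈ M, y ∈ M' → y = 1 := by
    intro y hy hy'
    let I : Subgroup N := (M ⊓ M').subgroupOf N
    haveI : I.Normal := ⟨fun u hu x => by
      rw [mem_subgroupOf] at hu ⊢
      exact ⟨hMnorm x x.2 u hu.1, hM'norm x x.2 u hu.2⟩⟩
    have hIM : I ≤ M₀ := fun u hu => by
      obtain ⟨v, hv, hvu⟩ := (mem_subgroupOf.1 hu).1
      exact (Subtype.ext hvu : v = u) ▸ hv
    rcases hM₀min I inferInstance hIM with e | e
    · have : (⟨y, hMN hy⟩ : N) ∈ I := mem_subgroupOf.2 ⟨hy, hy'⟩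
      rw [e, Subgroup.mem_bot] at this
      exact congrArg Subtype.val this
    · exfalso
      have hMM' : M ≤ M' := by
        rintro _ ⟨v, hv, rfl⟩
        rw [← e] at hv
        exact (mem_subgroupOf.1 hv).2
      refine hy₀' ?_
      rw [Subgroup.eq_of_le_of_card_ge hMM' hcardM'.le]
      exact ⟨y₀, hy₀, rfl⟩
  have hcomm : ∀ x ∈ M, ∀ y ∈ M', x * y = y * x := by
    intro x hx y hy
    have h1 : x * y * x⁻¹ * y⁻¹ ∈ M := by
      have := M.mul_mem hx (hMnorm y (hM'N hy) x⁻¹ (M.inv_mem hx))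
      simpa [mul_assoc] using this
    have h2 : x * y * x⁻¹ * y⁻¹ ∈ M' := M'.mul_mem (hM'norm x (hMN hx) y hy) (M'.inv_mem hy)
    exact (mul_inv_eq_one.1 (show x * y * (y * x)⁻¹ = 1 by rw [← hI _ h1 h2]; group))
  have hM'le : ∀ x ∈ M, M' ≤ centralizer ({x} : Set G) := fun x hx y hy =>
    mem_centralizer_singleton_iff.2 (hcomm x hx y hy).symm
  have hsol : Group.IsSolvable M' := by
    by_cases h2g : ∀ r, r.Prime → r ∣ Nat.card M → r = 2
    · haveI : Fact (Nat.Prime 2) := ⟨Nat.prime_two⟩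
      obtain ⟨k, hk⟩ : ∃ k, Nat.card M' = 2 ^ k := ⟨_, Nat.eq_prime_pow_of_unique_prime_dvd Nat.card_pos.ne'
        (fun {d} hd hdd => h2g d hd (hcardM' ▸ hdd))⟩
      haveI := (IsPGroup.of_card hk).isNilpotent
      infer_instance
    push Not at h2g
    obtain ⟨r, hr, hrM, hr2⟩ := h2g
    obtain ⟨z, hz, hzo⟩ := exists_mem_prime_order M hr hrM
    have hz1 : z ≠ 1 := fun e => hr.ne_one (by rw [← hzo, e, orderOf_one])
    have hle := hM'le z hz
    rcases h.prime_cases hr (hrM.trans (Subgroup.card_subgroup_dvd_card M)) with e | e | e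
    · subst e
      haveI : Fact r.Prime := ⟨hr⟩
      obtain ⟨k, -, hk⟩ := (Nat.dvd_prime_pow hr).1
        (h.hq ▸ (Subgroup.card_dvd_of_le hle).trans (h.cent_p hz1 (by rw [hzo])))
      haveI := (IsPGroup.of_card hk).isNilpotent
      infer_instance
    · haveI := h.isCyclic_cent_m hr e hzo
      haveI : IsCyclic M' := isCyclic_of_injective _ (Subgroup.inclusion_injective hle)
      exact Group.isSolvable_of_comm fun x y => by
        letI := IsCyclic.commGroup (α := M'); exact mul_comm x y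
    · haveI := h.isSolvable_centralizer_B hr hr2 e hzo
      exact solvable_of_solvable_injective (Subgroup.inclusion_injective hle)
  haveI := hsol
  haveI : Group.IsSolvable M₀ := solvable_of_solvable_injective
    (f := ((M₀.equivMapOfInjective N.subtype N.subtype_injective).trans
      (M.equivMapOfInjective (MulAut.conj g).toMonoidHom (MulEquiv.injective _))).toMonoidHom)
    (MulEquiv.injective _)
  haveI : Nontrivial M₀ := (nontrivial_iff_ne_bot M₀).2 hM₀1
  have hab : ⁅M₀, M₀⁆ = ⊥ := by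
    rcases hM₀min ⁅M₀, M₀⁆ inferInstance (Subgroup.commutator_le_left M₀ M₀) with e | e
    · exact e
    exfalso
    apply ne_of_lt (IsSolvable.commutator_lt_top_of_nontrivial M₀)
    apply Subgroup.map_injective M₀.subtype_injective
    rw [commutator_def, Subgroup.map_commutator, ← MonoidHom.range_eq_map, Subgroup.range_subtype]
    exact e
  haveI : IsMulCommutative M₀ := ⟨⟨fun x y => Subtype.ext
    (mem_centralizer_iff.1 (commutator_eq_bot_iff_le_centralizer.1 hab x.2) (y : N) y.2).symm⟩⟩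
  obtain ⟨r, hr, hrM⟩ := Nat.exists_prime_and_dvd (n := Nat.card M₀)
    (Finite.one_lt_card (α := M₀)).ne'
  haveI : Fact r.Prime := ⟨hr⟩
  obtain ⟨R⟩ := (inferInstance : Nonempty (Sylow r M₀))
  haveI : (R : Subgroup M₀).Normal := ⟨fun x hx y => by
    have : y * x = x * y := Std.Commutative.comm (op := (· * ·)) y x
    rwa [this, mul_inv_cancel_right]⟩
  haveI : (R : Subgroup M₀).Characteristic := R.characteristic_of_normal inferInstance
  set Q := (R : Subgroup M₀).map M₀.subtype with hQ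
  have hQne : Q ≠ ⊥ := by
    rw [hQ, Ne, Subgroup.map_eq_bot_iff_of_injective _ M₀.subtype_injective]
    exact R.ne_bot_of_dvd_card hrM
  have hQ' : Q.Normal := ConjAct.normal_of_characteristic_of_normal
  have hQp : IsPGroup r Q := R.2.map _
  obtain ⟨S⟩ := (inferInstance : Nonempty (Sylow r N))
  set S' := (S : Subgroup N).map N.subtype with hS'
  haveI := hQ'
  have hle : Q.map N.subtype ≤ S'.normalCore := by
    intro x hx g
    obtain ⟨u, hu, rfl⟩ := hx
    let ψ : N ≃* N := MulAut.conjNormal g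
    have hQ2 : (Q.map ψ.toMonoidHom).Normal := hQ'.map _ ψ.surjective
    haveI := hQ2
    obtain ⟨S₂, hS₂⟩ := (hQp.map ψ.toMonoidHom).exists_le_sylow
    obtain ⟨c, hc⟩ := MulAction.exists_smul_eq N S₂ S
    refine ⟨ψ u, ?_, MulAut.conjNormal_apply g u⟩
    rw [← hc, Sylow.coe_subgroup_smul]
    refine ⟨c⁻¹ * ψ u * c, hS₂ ?_, ?_⟩
    · have := hQ2.conj_mem (ψ u) ⟨u, hu, rfl⟩ c⁻¹
      rwa [inv_inv] at this
    · show c * (c⁻¹ * ψ u * c) * c⁻¹ = ψ u
      group
  have hcore : S'.normalCore = ⊥ := h.eq_bot_of_isPGroup _ ((S.2.map _).to_le (normalCore_le _))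
  rw [hcore, le_bot_iff, Subgroup.map_eq_bot_iff_of_injective _ N.subtype_injective] at hle
  exact hQne hle

end Ctx

end Cfsg.Agent.SmallOrder.PSL2Spec
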